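import Cfsg.Agent.Chev.Ree.LocalNormalizers
import Cfsg.Agent.Chev.Ree.Orders

/-! The numbers of elements of each order in a small Ree group. -/

set_option autoImplicit false
set_option maxRecDepth 100000
set_option linter.style.haveILetI false
set_option linter.unusedSectionVars false

namespace CfsgLib.Chev.Ree

open Cfsg.Lie CfsgLib.Chev Matrix CfsgLib.SL2

universe u

namespace GL0

variable {G : Type*} [Group G] [Finite G]

theorem ncard_orderOf_cyclic {A : Subgroup G} [IsCyclic ↥A] {d : ℕ} (hd : d ∣ Nat.card ↥A) :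
    Set.ncard {y : G | y ∈ A ∧ orderOf y = d} = Nat.totient d := by
  classical
  haveI := Fintype.ofFinite ↥A
  rw [Nat.card_eq_fintype_card] at hd
  rw [← IsCyclic.card_orderOf_eq_totient hd, ← Set.ncard_coe_finset,
    ← Set.ncard_image_of_injective _ (Subtype.val_injective : Function.Injective (Subtype.val : ↥A → G))]
  congr 1
  ext y
  simp only [Set.mem_image, Finset.coe_filter, Finset.mem_univ, true_and, Set.mem_setOf_eq]
  constructor
  · rintro ⟨hy, ho⟩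
    exact ⟨⟨y, hy⟩, by rw [← ho, Subgroup.orderOf_mk], rfl⟩
  · rintro ⟨⟨z, hz⟩, ho, rfl⟩
    exact ⟨hz, by rwa [Subgroup.orderOf_mk] at ho⟩

theorem orderOf_conj' (g y : G) : orderOf (g * y * g⁻¹) = orderOf y := by
  rw [← MulAut.conj_apply, MulEquiv.orderOf_eq]

/-- Counting the elements of one order. -/
theorem card_order {d : ℕ} {W : Set G} {N : Subgroup G} (hWd : ∀ y ∈ W, orderOf y = d)
    (hN : ∀ n ∈ N, ∀ y ∈ W, n * y * n⁻¹ ∈ W) (hfus : ∀ y ∈ W, ∀ g : G, g * y * g⁻¹ ∈ W → g ∈ N)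
    (hall : ∀ y : G, orderOf y = d → ∃ g, g * y * g⁻¹ ∈ W) :
    Nat.card {y : G // orderOf y = d} * Nat.card ↥N = Nat.card G * W.ncard := by
  rw [← card_conjSet hN hfus, show Nat.card {y : G // orderOf y = d} = {y : G | orderOf y = d}.ncard from
    Nat.card_coe_set_eq _]
  congr 2
  ext y
  refine ⟨fun h => hall y h, ?_⟩
  rintro ⟨g, hg⟩
  show orderOf y = d
  rw [← orderOf_conj' g y, hWd _ hg]

end GL0

variable {K : Type u} [Field K] [Finite K] [CharP K 3] (m : ℕ)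

local notation "G¹" => twistedG2 K (3 ^ m)
local notation "k₁" => ((3 ^ (2 * m + 1) - 1) / 2)
local notation "k₂" => ((3 ^ (2 * m + 1) + 1) / 4)
local notation "qq" => (3 ^ (2 * m + 1) : ℕ)

variable (hK : Nat.card K = 3 ^ (2 * m + 1))

include hK in
theorem card_group_sq : Nat.card ↥G¹ = qq ^ 3 * (qq ^ 2 - 1) * (qq ^ 2 - qq + 1) := by
  rw [card_group_Nq m hK, mul_assoc (qq ^ 3)]
  have h : qq ≤ qq ^ 2 := Nat.le_self_pow two_ne_zero _
  congr 1
  · rw [show qq ^ 2 - 1 = (qq + 1) * (qq - 1) by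
      rw [show (1 : ℕ) = 1 ^ 2 from rfl, Nat.sq_sub_sq]; simp]
    ring
  · rw [Nq, Nat.mul_sub_one, ← pow_two]

include hK in
theorem count_two : Nat.card {y : ↥G¹ // orderOf y = 2} = qq ^ 2 * (qq ^ 2 - qq + 1) := by
  have h := GL0.card_order (d := 2) (W := {hmG K m}) (N := Ch K m)
    (fun y hy => by rw [Set.mem_singleton_iff.1 hy]; exact orderOf_hmG m hK)
    (fun n hn y hy => by
      rw [Set.mem_singleton_iff] at hy ⊢
      rw [hy, ← (mem_Ch m).1 hn, mul_inv_cancel_right])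
    (fun y hy g hg => by
      rw [Set.mem_singleton_iff] at hy hg
      rw [hy, mul_inv_eq_iff_eq_mul] at hg
      exact (mem_Ch m).2 hg.symm)
    (fun y hy => by
      obtain ⟨hy2, hy1⟩ := orderOf_eq_prime_iff.1 hy
      exact isConj_iff.1 (isConj_hm m hK (by rw [← pow_two, hy2]) hy1))
  rw [Set.ncard_singleton, mul_one, card_Ch m hK, card_group_sq m hK] at h
  have hq : 2 ≤ qq := le_trans (by norm_num) (Nat.le_self_pow (show 2 * m + 1 ≠ 0 by omega) 3)
  have h2 : 0 < qq ^ 2 - 1 := Nat.sub_pos_of_lt (Nat.one_lt_pow two_ne_zero (by omega))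
  refine Nat.eq_of_mul_eq_mul_right (Nat.mul_pos (show 0 < qq by omega) h2) ?_
  rw [h]; ring

variable (K) in
/-- The elements of the unipotent radical. -/
def posSet : Set ↥(twistedG2 K (3 ^ m)) := {y | (y : GL chevG2.Idx K) ∈ chevG2.posUnipotent K}

include hK in
theorem three_conj {y : ↥G¹} {n : ℕ} (hy : y ^ 3 ^ n = 1) : ∃ g : ↥G¹, g * y * g⁻¹ ∈ posSet K m := by
  haveI : Fact (Nat.Prime 3) := ⟨Nat.prime_three⟩
  set U := (chevG2.posUnipotent K ⊓ G¹).subgroupOf G¹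
  have hU : Nat.card ↥U = qq ^ 3 := by
    rw [Nat.card_congr (Subgroup.subgroupOfEquivOfLe inf_le_right).toEquiv, card_pos_inf m hK]
  have hr : ¬ 3 ∣ (qq - 1) * (qq ^ 3 + 1) := fun h => by
    have hq : 1 ≤ qq := Nat.one_le_pow _ _ (by norm_num)
    have hd : (3 : ℕ) ∣ qq := dvd_pow_self 3 (by omega)
    rcases Nat.prime_three.dvd_mul.1 h with h | h
    · omega
    · have := dvd_pow hd (show 3 ≠ 0 by norm_num); omega
  obtain ⟨g, hg⟩ := GL0.conj_into U (p := 3) (n := n) (r := (qq - 1) * (qq ^ 3 + 1))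
    (by rw [card_group m hK, hU, mul_assoc]) hr hy
  exact ⟨g, (Subgroup.mem_inf.1 (Subgroup.mem_subgroupOf.1 hg)).1⟩

include hK in
theorem ncard_pos_cube : Set.ncard {y : ↥G¹ | y ∈ posSet K m ∧ y ^ 3 = 1} = qq ^ 2 ∧
    Set.ncard (posSet K m) = qq ^ 3 := by
  constructor
  · have e : {y : ↥G¹ | y ∈ posSet K m ∧ y ^ 3 = 1} =
        Set.range fun p : K × K => (⟨WR m (0 : K) p.1 p.2, WR_mem m 0 p.1 p.2⟩ : ↥G¹) := by
      ext y
      constructor
      · rintro ⟨hy, h3⟩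
        obtain ⟨t, u, v, e⟩ := (mem_pos_inf m hK).1 (Subgroup.mem_inf.2 ⟨hy, y.2⟩)
        have h3' : WR m t u v ^ 3 = 1 := by rw [← e]; exact congrArg Subtype.val h3
        rw [(cube_eq_one_iff m hK t u v).1 h3'] at e
        exact ⟨(u, v), Subtype.ext e.symm⟩
      · rintro ⟨⟨u, v⟩, rfl⟩
        exact ⟨W_mem _ _ _ _ _ _, Subtype.ext (by simpa using (cube_eq_one_iff m hK 0 u v).2 rfl)⟩
    rw [e, Set.ncard_range_of_injective (fun p p' h => by
      obtain ⟨-, h1, h2⟩ := WR_inj m (congrArg Subtype.val h)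
      exact Prod.ext h1 h2), Nat.card_prod, hK, pow_two]
  · rw [show posSet K m = (((chevG2.posUnipotent K ⊓ G¹).subgroupOf G¹ : Subgroup ↥G¹) : Set ↥G¹) by
        ext y; simp [posSet, Subgroup.mem_subgroupOf], ← Nat.card_coe_set_eq, SetLike.coe_sort_coe,
      Nat.card_congr (Subgroup.subgroupOfEquivOfLe inf_le_right).toEquiv, card_pos_inf m hK]

variable (K) in
/-- The Borel subgroup. -/
def BG : Subgroup ↥(twistedG2 K (3 ^ m)) := (chevG2.borelSubgroup K ⊓ twistedG2 K (3 ^ m)).subgroupOf _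

theorem mem_BG {g : ↥G¹} : g ∈ BG K m ↔ (g : GL chevG2.Idx K) ∈ chevG2.borelSubgroup K := by
  simp [BG, Subgroup.mem_subgroupOf]

include hK in
theorem card_BG : Nat.card ↥(BG K m) = qq ^ 3 * (qq - 1) := by
  rw [BG, Nat.card_congr (Subgroup.subgroupOfEquivOfLe inf_le_right).toEquiv, borel_inf_eq m hK,
    Twisted.GData.card_B1]
  congr 1
  · exact (congrArg (fun H : Subgroup (GL chevG2.Idx K) => Nat.card ↥H) (pos_inf_eq m hK).symm).trans
      (card_pos_inf m hK)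
  · exact card_torus m hK

include hK in
theorem count_pos {d : ℕ} (hd1 : d ≠ 1) (hd : d ∣ 9) :
    Nat.card {y : ↥G¹ // orderOf y = d} * (qq ^ 3 * (qq - 1)) =
      Nat.card ↥G¹ * Set.ncard {y : ↥G¹ | y ∈ posSet K m ∧ orderOf y = d} := by
  rw [← card_BG (K := K) m hK]
  refine GL0.card_order (fun y hy => hy.2) (fun n hn y hy => ⟨borel_conj_pos ((mem_BG m).1 hn) hy.1,
    by rw [GL0.orderOf_conj', hy.2]⟩) (fun y hy g hg => (mem_BG m).2 (conj_mem_borel m hK hy.1 (fun e => hd1 (by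
      rw [← hy.2, e, orderOf_one])) hg.1)) (fun y hy => ?_)
  obtain ⟨g, hg⟩ := three_conj m hK (y := y) (n := 2) (orderOf_dvd_iff_pow_eq_one.1 (by rw [hy]; exact hd))
  exact ⟨g, hg, by rw [GL0.orderOf_conj', hy]⟩

include hK in
theorem count_three : Nat.card {y : ↥G¹ // orderOf y = 3} = (qq ^ 2 - 1) * (qq ^ 3 + 1) := by
  haveI : Fact (Nat.Prime 3) := ⟨Nat.prime_three⟩
  have h := count_pos (K := K) m hK (d := 3) (by norm_num) (by norm_num)
  have e : {y : ↥G¹ | y ∈ posSet K m ∧ orderOf y = 3} = {y : ↥G¹ | y ∈ posSet K m ∧ y ^ 3 = 1} \ {1} := by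
    ext y
    refine ⟨fun ⟨h1, h2⟩ => ⟨⟨h1, orderOf_dvd_iff_pow_eq_one.1 (dvd_of_eq h2)⟩, fun e => ?_⟩,
      fun ⟨⟨h1, h2⟩, h3⟩ => ⟨h1, orderOf_eq_prime h2 h3⟩⟩
    rw [Set.mem_singleton_iff] at e
    rw [e, orderOf_one] at h2
    exact absurd h2 (by norm_num)
  rw [e, Set.ncard_sdiff (Set.singleton_subset_iff.2 (show (1 : ↥G¹) ∈ {y : ↥G¹ | y ∈ posSet K m ∧ y ^ 3 = 1} from
      ⟨(chevG2.posUnipotent K).one_mem, one_pow _⟩)),
    (ncard_pos_cube (K := K) m hK).1, Set.ncard_singleton, card_group m hK] at h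
  have hq : 3 ≤ qq := Nat.le_self_pow (by omega) 3
  refine Nat.eq_of_mul_eq_mul_right (show 0 < qq ^ 3 * (qq - 1) from Nat.mul_pos (by positivity) (by omega)) ?_
  rw [h]; ring

include hK in
theorem count_nine : Nat.card {y : ↥G¹ // orderOf y = 9} = qq ^ 2 * (qq - 1) * (qq ^ 3 + 1) := by
  haveI : Fact (Nat.Prime 3) := ⟨Nat.prime_three⟩
  have h := count_pos (K := K) m hK (d := 9) (by norm_num) dvd_rfl
  have e : {y : ↥G¹ | y ∈ posSet K m ∧ orderOf y = 9} = posSet K m \ {y : ↥G¹ | y ∈ posSet K m ∧ y ^ 3 = 1} := by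
    ext y
    refine ⟨fun ⟨h1, h2⟩ => ⟨h1, fun e => ?_⟩, fun ⟨h1, h2⟩ => ⟨h1, ?_⟩⟩
    · have := orderOf_dvd_of_pow_eq_one e.2
      rw [h2] at this
      exact absurd (Nat.le_of_dvd (by norm_num) this) (by norm_num)
    · obtain ⟨t, u, v, e⟩ := (mem_pos_inf m hK).1 (Subgroup.mem_inf.2 ⟨h1, y.2⟩)
      exact orderOf_eq_prime_pow (p := 3) (n := 1) (by rw [pow_one]; exact fun h3 => h2 ⟨h1, h3⟩)
        (Subtype.ext (by rw [SubmonoidClass.coe_pow, e, OneMemClass.coe_one]; exact WR_pow_nine m hK t u v))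
  rw [e, Set.ncard_sdiff (fun y hy => hy.1), (ncard_pos_cube (K := K) m hK).1, (ncard_pos_cube (K := K) m hK).2,
    card_group m hK] at h
  have hq : 3 ≤ qq := Nat.le_self_pow (by omega) 3
  rw [show qq ^ 3 - qq ^ 2 = qq ^ 2 * (qq - 1) by rw [Nat.mul_sub_one, ← pow_succ]] at h
  refine Nat.eq_of_mul_eq_mul_right (show 0 < qq ^ 3 * (qq - 1) from Nat.mul_pos (by positivity) (by omega)) ?_
  rw [h]; ring

variable (K) in
/-- `hm` times the non-trivial elements of its fixed group in the unipotent radical. -/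
def sixSet : Set ↥(twistedG2 K (3 ^ m)) :=
  {y | ∃ t : K, t ≠ 0 ∧ y = hmG K m * ⟨xG m t, xG_mem m t⟩}

include hK in
theorem card_Ch_borel : Nat.card ↥(Ch K m ⊓ BG K m) = qq * (qq - 1) := by
  have hHG : ∀ h : ↥(H1 K m), (h : GL chevG2.Idx K) ∈ G¹ := fun h =>
    (Subgroup.mem_inf.1 (by rw [diag_inf_eq m hK]; exact h.2 :
      (h : GL chevG2.Idx K) ∈ chevG2.diagonalSubgroup K ⊓ G¹)).2
  let f : K × ↥(H1 K m) → ↥(Ch K m ⊓ BG K m) := fun p =>
    ⟨⟨xG m p.1, xG_mem m p.1⟩ * ⟨p.2, hHG p.2⟩, Subgroup.mem_inf.2 ⟨(mem_Ch m).2 (Subtype.ext (by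
      show hm K * (xG m p.1 * (p.2 : GL chevG2.Idx K)) = xG m p.1 * (p.2 : GL chevG2.Idx K) * hm K
      rw [← mul_assoc, hm_comm_x m hK, mul_assoc, mul_assoc, H1_comm m hK (hm_mem_H1 m hK) p.2.2])),
      (mem_BG m).2 (mul_mem (xG_mem_borel m _) (Subgroup.mem_sup_right (Subgroup.mem_inf.1 p.2.2).1))⟩⟩
  have hinj : Function.Injective f := by
    intro p p' h
    have e : xG m p.1 * (p.2 : GL chevG2.Idx K) = xG m p'.1 * (p'.2 : GL chevG2.Idx K) :=
      congrArg (fun z : ↥(Ch K m ⊓ BG K m) => ((z : ↥G¹) : GL chevG2.Idx K)) h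
    have e' : (xG m p'.1)⁻¹ * xG m p.1 = (p'.2 : GL chevG2.Idx K) * (p.2 : GL chevG2.Idx K)⁻¹ := by
      rw [eq_mul_inv_iff_mul_eq, mul_assoc, e, inv_mul_cancel_left]
    have h1 := pos_diag m hK (mul_mem (inv_mem (W_mem _ _ _ _ _ _)) (W_mem _ _ _ _ _ _))
      (show (xG m p'.1)⁻¹ * xG m p.1 ∈ H1 K m by rw [e']; exact mul_mem p'.2.2 (inv_mem p.2.2))
    rw [inv_mul_eq_one] at h1
    obtain ⟨-, h2, -⟩ := WR_inj m (show WR m (0 : K) p'.1 0 = WR m 0 p.1 0 from h1)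
    refine Prod.ext h2.symm (Subtype.ext ?_)
    rw [h2] at e
    exact mul_left_cancel e
  have hsurj : Function.Surjective f := by
    rintro ⟨g, hg⟩
    obtain ⟨t, s, hs, h⟩ := borel_fixed_hm m hK (g := (g : GL chevG2.Idx K))
      (by rw [← borel_inf_eq m hK]; exact Subgroup.mem_inf.2 ⟨(mem_BG m).1 (Subgroup.mem_inf.1 hg).2, g.2⟩)
      (congrArg Subtype.val ((mem_Ch m).1 (Subgroup.mem_inf.1 hg).1))
    rcases h with h | h
    · exact ⟨(t, ⟨hG m s, hG_mem_H1 m hK hs⟩), Subtype.ext (Subtype.ext h.symm)⟩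
    · refine ⟨(t, ⟨hm K * hG m s, mul_mem (hm_mem_H1 m hK) (hG_mem_H1 m hK hs)⟩), Subtype.ext (Subtype.ext ?_)⟩
      show xG m t * (hm K * hG m s) = (g : GL chevG2.Idx K)
      rw [h, ← mul_assoc, ← mul_assoc, hm_comm_x m hK]
  rw [← Nat.card_congr (Equiv.ofBijective f ⟨hinj, hsurj⟩), Nat.card_prod, hK, card_torus m hK]

include hK in
theorem six_parts {y : ↥G¹} (hy : y ∈ sixSet K m) : y ^ 3 = hmG K m ∧ y ^ 4 ∈ posSet K m ∧ y ^ 4 ≠ 1 ∧
    orderOf y = 6 := by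
  haveI : Fact (Nat.Prime 3) := ⟨Nat.prime_three⟩
  obtain ⟨t, ht, rfl⟩ := hy
  set x : ↥G¹ := ⟨xG m t, xG_mem m t⟩
  have hc : Commute (hmG K m) x := Subtype.ext (hm_comm_x m hK t)
  have hx3 : x ^ 3 = 1 := Subtype.ext (show WR m (0 : K) t 0 ^ 3 = 1 from (cube_eq_one_iff m hK 0 t 0).2 rfl)
  have hx1 : x ≠ 1 := fun e => ht (by
    obtain ⟨-, h, -⟩ := WR_inj m (show WR m (0 : K) t 0 = WR m 0 0 0 from
      (congrArg Subtype.val e).trans (WR_zero m).symm)
    exact h)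
  have hh : hmG K m ^ 2 = 1 := by rw [pow_two, hmG_mul_self m hK]
  have h4 : (hmG K m * x) ^ 4 = x := by
    rw [hc.mul_pow, show hmG K m ^ 4 = (hmG K m ^ 2) ^ 2 by rw [← pow_mul], hh, one_pow, one_mul,
      pow_succ, hx3, one_mul]
  refine ⟨by rw [hc.mul_pow, pow_succ, hh, hx3, one_mul, mul_one], by rw [h4]; exact W_mem _ _ _ _ _ _,
    by rw [h4]; exact hx1, ?_⟩
  rw [hc.orderOf_mul_eq_mul_orderOf_of_coprime (by rw [orderOf_hmG m hK, orderOf_eq_prime hx3 hx1]; norm_num),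
    orderOf_hmG m hK, orderOf_eq_prime hx3 hx1]

include hK in
theorem mem_sixSet {z : ↥G¹} (hz3 : z ^ 3 = hmG K m) (ho : orderOf z = 6) (hU : z ^ 4 ∈ posSet K m) :
    z ∈ sixSet K m := by
  have hc : hmG K m * z ^ 4 = z ^ 4 * hmG K m := by rw [← hz3, ← pow_add, ← pow_add, add_comm]
  have e : z = hmG K m * z ^ 4 := by
    rw [← hz3, ← pow_add, show 3 + 4 = orderOf z + 1 by rw [ho], pow_succ, pow_orderOf_eq_one, one_mul]
  obtain ⟨t, u, v, eu⟩ := (mem_pos_inf m hK).1 (Subgroup.mem_inf.2 ⟨hU, (z ^ 4).2⟩)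
  have hz : WR m t u v = WR m (-t) u (-v) := by
    rw [← hm_conj_WR m hK, ← eu]
    exact (mul_inv_eq_iff_eq_mul.2 (congrArg Subtype.val hc)).symm
  obtain ⟨h1, -, h3⟩ := WR_inj m hz
  have hneg : ∀ x : K, x = -x → x = 0 := fun x hx => by
    have : (2 : K) * x = 0 := by linear_combination hx
    exact (mul_eq_zero.1 this).resolve_left two_ne_zero'
  rw [hneg t h1, hneg v h3] at eu
  refine ⟨u, fun hu => ?_, e.trans (congrArg (fun w => hmG K m * w) (Subtype.ext eu))⟩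
  rw [hu, WR_zero] at eu
  have := orderOf_dvd_of_pow_eq_one (show z ^ 4 = 1 from Subtype.ext eu)
  rw [ho] at this
  norm_num at this

include hK in
theorem count_six : Nat.card {y : ↥G¹ // orderOf y = 6} = qq ^ 2 * (qq - 1) * (qq ^ 3 + 1) := by
  have h := GL0.card_order (d := 6) (W := sixSet K m) (N := Ch K m ⊓ BG K m)
    (fun y hy => (six_parts m hK hy).2.2.2)
    (fun n hn y hy => by
      obtain ⟨h3, h4, -, ho⟩ := six_parts m hK hy
      refine mem_sixSet m hK ?_ (by rw [GL0.orderOf_conj', ho]) ?_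
      · rw [conj_pow, h3, ← (mem_Ch m).1 (Subgroup.mem_inf.1 hn).1, mul_inv_cancel_right]
      · rw [conj_pow]; exact borel_conj_pos ((mem_BG m).1 (Subgroup.mem_inf.1 hn).2) h4)
    (fun y hy g hg => by
      obtain ⟨h3, h4, h41, -⟩ := six_parts m hK hy
      obtain ⟨g3, g4, -, -⟩ := six_parts m hK hg
      rw [conj_pow] at g3 g4
      rw [h3, mul_inv_eq_iff_eq_mul] at g3
      exact Subgroup.mem_inf.2 ⟨(mem_Ch m).2 g3.symm, (mem_BG m).2 (conj_mem_borel m hK h4 h41 g4)⟩)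
    (fun y hy => by
      have h3 : (y ^ 4) ^ 3 = 1 := by
        rw [← pow_mul, show 4 * 3 = 6 * 2 from rfl, pow_mul, ← hy, pow_orderOf_eq_one, one_pow]
      obtain ⟨a, ha⟩ := three_conj m hK (y := y ^ 4) (n := 1) (by rwa [pow_one])
      have hz1 : a * y ^ 4 * a⁻¹ ≠ 1 := fun e => by
        have := orderOf_dvd_of_pow_eq_one (conj_eq_one_iff.1 e)
        rw [hy] at this
        norm_num at this
      set z := a * y * a⁻¹ with hz
      have hz4 : z ^ 4 = a * y ^ 4 * a⁻¹ := by rw [hz, conj_pow]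
      have hzo : orderOf z = 6 := by rw [hz, GL0.orderOf_conj', hy]
      have hzB := centralizer_unipotent_le_borel m hK ha hz1 (g := z) (by
        rw [← hz4]; exact ((Commute.refl z).pow_right 4).eq)
      obtain ⟨t, u, v, eu⟩ := (mem_pos_inf m hK).1 (Subgroup.mem_inf.2 ⟨ha, (a * y ^ 4 * a⁻¹).2⟩)
      have hz32 : z ^ 3 * z ^ 3 = 1 := by rw [← pow_add, show 3 + 3 = orderOf z by rw [hzo], pow_orderOf_eq_one]
      have hz31 : z ^ 3 ≠ 1 := fun e => by
        have := orderOf_dvd_of_pow_eq_one e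
        rw [hzo] at this
        norm_num at this
      obtain ⟨b, hb, hbz⟩ := borel_involution_conj m hK
        (y := z ^ 3) (by rw [SubmonoidClass.coe_pow]; exact pow_mem hzB 3) hz32 hz31
      refine ⟨b * a, ?_⟩
      rw [show b * a * y * (b * a)⁻¹ = b * z * b⁻¹ by rw [hz]; group]
      refine mem_sixSet m hK (by rw [conj_pow, hbz]) (by rw [GL0.orderOf_conj', hzo]) ?_
      rw [conj_pow, hz4]
      exact borel_conj_pos hb ha)
  have hW : (sixSet K m).ncard = qq - 1 := by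
    have e : sixSet K m = (fun t : K => hmG K m * (⟨xG m t, xG_mem m t⟩ : ↥G¹)) '' ({0}ᶜ) := by
      ext y
      exact ⟨fun ⟨t, ht, e⟩ => ⟨t, ht, e.symm⟩, fun ⟨t, ht, e⟩ => ⟨t, ht, e.symm⟩⟩
    rw [e, Set.ncard_image_of_injective _ (fun s t h => (WR_inj m (show WR m (0 : K) s 0 = WR m 0 t 0 from
      congrArg Subtype.val (mul_left_cancel h))).2.1), Set.ncard_compl, Set.ncard_singleton, hK]
  rw [card_Ch_borel m hK, hW, card_group m hK] at h
  have hq : 3 ≤ qq := Nat.le_self_pow (by omega) 3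
  refine Nat.eq_of_mul_eq_mul_right (show 0 < qq * (qq - 1) from Nat.mul_pos (by positivity) (by omega)) ?_
  rw [h]; ring

end CfsgLib.Chev.Ree
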