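import Cfsg.Agent.Chev.Ree.Counts

/-! The numbers of elements of the torus orders in a small Ree group. -/

set_option autoImplicit false
set_option maxRecDepth 100000
set_option linter.style.haveILetI false
set_option linter.unusedSectionVars false

namespace CfsgLib.Chev.Ree

open Cfsg.Lie CfsgLib.Chev Matrix CfsgLib.SL2

universe u

variable {K : Type u} [Field K] [Finite K] [CharP K 3] (m : ℕ)

local notation "G¹" => twistedG2 K (3 ^ m)
local notation "k₁" => ((3 ^ (2 * m + 1) - 1) / 2)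
local notation "k₂" => ((3 ^ (2 * m + 1) + 1) / 4)
local notation "qq" => (3 ^ (2 * m + 1) : ℕ)

variable (hK : Nat.card K = 3 ^ (2 * m + 1))

include hK in
theorem count_split (hm : 1 ≤ m) {i : ℕ} (hi : 2 < i) (hd : i ∣ qq - 1) :
    2 * Nat.card {y : ↥G¹ // orderOf y = i} = Nat.totient i * qq ^ 3 * (qq ^ 3 + 1) := by
  obtain ⟨hk, hodd⟩ := k1_facts (K := K) m hK
  haveI := isCyclic_TG (K := K) m hK
  have hne2 : ∀ y : ↥G¹, orderOf y = i → y * y ≠ 1 := fun y hy e => by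
    have := Nat.le_of_dvd (by norm_num) (orderOf_dvd_of_pow_eq_one (x := y) (n := 2) (by rw [pow_two, e]))
    omega
  have hn : nG K m ∈ Subgroup.normalizer ((TG K m : Subgroup ↥G¹) : Set ↥G¹) :=
    GL0.mem_normalizer_of_conj_le fun x hx => by rw [nG_conj m hK hx]; exact inv_mem hx
  have h := GL0.card_order (d := i) (W := {y : ↥G¹ | y ∈ TG K m ∧ orderOf y = i})
    (N := Subgroup.normalizer ((TG K m : Subgroup ↥G¹) : Set ↥G¹)) (fun y hy => hy.2)
    (fun n hn y hy => ⟨(Subgroup.mem_normalizer_iff.1 hn y).1 hy.1, by rw [GL0.orderOf_conj', hy.2]⟩)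
    (fun y hy g hg => by
      rcases torus_fusion m hK hy.1 (hne2 y hy.2) hg.1 with ⟨hgT, -⟩ | ⟨hgT, -⟩
      · exact Subgroup.le_normalizer hgT
      · have := mul_mem (inv_mem hn) (Subgroup.le_normalizer hgT)
        rwa [inv_mul_cancel_left] at this)
    (fun y hy => by
      have hik : i ∣ 2 * k₁ := hd.trans (dvd_of_eq hk.symm)
      obtain ⟨p, hp, hpi, hp2⟩ : ∃ p, p.Prime ∧ p ∣ i ∧ p ≠ 2 := by
        by_contra hcon
        push Not at hcon
        have h2 : i = 2 ^ i.primeFactorsList.length := Nat.eq_prime_pow_of_unique_prime_dvd (by omega) (fun hp hd => hcon _ hp hd)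
        generalize i.primeFactorsList.length = j at h2
        have hj : 2 ≤ j := by
          rcases j with _ | _ | j
          · norm_num at h2; omega
          · norm_num at h2; omega
          · omega
        have : 2 * 2 ∣ 2 * k₁ := (pow_two 2 ▸ pow_dvd_pow 2 hj).trans (h2 ▸ hik)
        exact Nat.not_even_iff_odd.2 hodd (even_iff_two_dvd.2 (Nat.dvd_of_mul_dvd_mul_left (by norm_num) this))
      have hpk : p ∣ k₁ := (hp.dvd_mul.1 (hpi.trans hik)).resolve_left fun e =>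
        hp2 ((Nat.prime_dvd_prime_iff_eq hp Nat.prime_two).1 e)
      set z := y ^ (orderOf y / p)
      have hzo : orderOf z = p := orderOf_pow_orderOf_div (orderOf_pos y).ne' (hy ▸ hpi)
      obtain ⟨g, hg⟩ := conj_into_A1 m hK hp hpk (x := z) (n := 1) (by rw [pow_one, ← hzo, pow_orderOf_eq_one])
      have hg1 : g * z * g⁻¹ ≠ 1 := fun e => by
        rw [conj_eq_one_iff] at e; rw [e, orderOf_one] at hzo; exact hp.one_lt.ne hzo
      refine ⟨g, ?_, by rw [GL0.orderOf_conj', hy]⟩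
      rw [← centralizer_TG m hK (A1_le m hg) (A1_sq_ne m hK hg hg1), Subgroup.mem_centralizer_singleton_iff,
        show z = y ^ (orderOf y / p) from rfl, ← conj_pow]
      exact ((Commute.refl _).pow_right _).eq)
  rw [card_normalizer_TG m hK hm, GL0.ncard_orderOf_cyclic (by rw [card_TG m hK]; exact hd), card_group m hK] at h
  have hq : 3 ≤ qq := Nat.le_self_pow (by omega) 3
  refine Nat.eq_of_mul_eq_mul_right (show 0 < qq - 1 by omega) ?_
  linear_combination h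

include hK in
theorem conj_into_DQ (hm : 1 ≤ m) {i : ℕ} (hi : 1 < i) (hd : i ∣ k₂) {y : ↥G¹}
    (hy : orderOf y = i ∨ orderOf y = 2 * i) : ∃ g : ↥G¹, g * y * g⁻¹ ∈ DQ K m hK := by
  obtain ⟨p, hp, hpi⟩ := Nat.exists_prime_and_dvd hi.ne'
  have hpy : p ∣ orderOf y := by
    rcases hy with h | h <;> rw [h]
    exacts [hpi, hpi.mul_left 2]
  have hzo : orderOf (y ^ (orderOf y / p)) = p := orderOf_pow_orderOf_div (orderOf_pos y).ne' hpy
  obtain ⟨g, hg⟩ := conj_into_A2 m hK hp (hpi.trans hd) (x := y ^ (orderOf y / p)) (n := 1)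
    (by rw [pow_one]; conv_lhs => arg 2; rw [← hzo]
        exact pow_orderOf_eq_one _)
  have hg1 : g * y ^ (orderOf y / p) * g⁻¹ ≠ 1 := fun e => by
    rw [conj_eq_one_iff] at e; rw [e, orderOf_one] at hzo; exact hp.one_lt.ne hzo
  refine ⟨g, ?_⟩
  rw [← centralizer_A2_elem m hK hg hg1, Subgroup.mem_centralizer_singleton_iff, ← conj_pow]
  exact ((Commute.refl _).pow_right _).eq

include hK in
theorem fusion_DQ {a g : ↥G¹} (ha : a ∈ A2 K m hK) (ha1 : a ≠ 1) (hg : g * a * g⁻¹ ∈ A2 K m hK) :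
    g ∈ Subgroup.normalizer ((VG K m hK : Subgroup ↥G¹) : Set ↥G¹) := by
  refine GL0.mem_normalizer_of_conj_le fun v hv => mem_VG_of_sq m hK ?_ (by
    rw [show g * v * g⁻¹ * (g * v * g⁻¹) = g * (v * v) * g⁻¹ by group, VG_sq m hK hv]; group)
  rw [← centralizer_A2_elem m hK hg (fun e => ha1 (conj_eq_one_iff.1 e)), Subgroup.mem_centralizer_singleton_iff,
    show g * v * g⁻¹ * (g * a * g⁻¹) = g * (v * a) * g⁻¹ by group, VA_comm m hK hv ha]
  group

include hK in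
theorem conj_mem_DQ {n y : ↥G¹} (hn : n ∈ Subgroup.normalizer ((VG K m hK : Subgroup ↥G¹) : Set ↥G¹))
    (hy : y ∈ DQ K m hK) (hA : A2 K m hK ≠ ⊥) : n * y * n⁻¹ ∈ DQ K m hK := by
  have hn' := hn
  rw [← normalizer_A2 m hK le_rfl hA] at hn'
  obtain ⟨v, hv, a, ha, rfl⟩ := (mem_DQ m hK).1 hy
  exact (mem_DQ m hK).2 ⟨n * v * n⁻¹, (Subgroup.mem_normalizer_iff.1 hn v).1 hv, n * a * n⁻¹,
    (Subgroup.mem_normalizer_iff.1 hn' a).1 ha, by group⟩

include hK in
theorem count_nonsplit (hm : 1 ≤ m) {i : ℕ} (hi : 1 < i) (hd : i ∣ k₂) :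
    6 * Nat.card {y : ↥G¹ // orderOf y = i} = Nat.totient i * qq ^ 3 * (qq - 1) * (qq ^ 2 - qq + 1) ∧
    2 * Nat.card {y : ↥G¹ // orderOf y = 2 * i} = Nat.totient i * qq ^ 3 * (qq - 1) * (qq ^ 2 - qq + 1) := by
  obtain ⟨hk, hodd, -⟩ := k2_facts (K := K) m hK
  haveI := isCyclic_A2 (K := K) m hK
  have hio : Odd i := hodd.of_dvd_nat hd
  have hAne : A2 K m hK ≠ ⊥ := fun e => by
    have := card_A2 (K := K) m hK
    rw [e, Subgroup.card_bot] at this
    rw [← this] at hd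
    exact hi.ne' (Nat.dvd_one.1 hd)
  have hord : ∀ {v a : ↥G¹}, v ∈ VG K m hK → a ∈ A2 K m hK → v ≠ 1 → orderOf (v * a) = 2 * orderOf a := by
    intro v a hv ha hv1
    have ho : orderOf v = 2 := orderOf_eq_prime (by rw [pow_two, VG_sq m hK hv]) hv1
    rw [(show Commute v a from VA_comm m hK hv ha).orderOf_mul_eq_mul_orderOf_of_coprime (by
      rw [ho]; exact Nat.coprime_two_left.2 (hodd.of_dvd_nat (orderOf_dvd_of_pow_eq_one (pow_of_mem_A2 m hK ha)))), ho]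
  have hW1 : (Set.ncard {y : ↥G¹ | y ∈ A2 K m hK ∧ orderOf y = i}) = Nat.totient i :=
    GL0.ncard_orderOf_cyclic (by rw [card_A2 m hK]; exact hd)
  have h1 := GL0.card_order (d := i) (W := {y : ↥G¹ | y ∈ A2 K m hK ∧ orderOf y = i})
    (N := Subgroup.normalizer ((VG K m hK : Subgroup ↥G¹) : Set ↥G¹)) (fun y hy => hy.2)
    (fun n hn y hy => ⟨by
      rw [← normalizer_A2 m hK le_rfl hAne] at hn
      exact (Subgroup.mem_normalizer_iff.1 hn y).1 hy.1, by rw [GL0.orderOf_conj', hy.2]⟩)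
    (fun y hy g hg => fusion_DQ m hK hy.1 (fun e => by have h2 := hy.2; rw [e, orderOf_one] at h2; exact hi.ne h2) hg.1)
    (fun y hy => by
      obtain ⟨g, hg⟩ := conj_into_DQ m hK hm hi hd (Or.inl hy)
      refine ⟨g, mem_A2_of_pow m hK hg (orderOf_dvd_iff_pow_eq_one.1 ?_), by rw [GL0.orderOf_conj', hy]⟩
      rw [GL0.orderOf_conj', hy]; exact hd)
  have e2 : {y : ↥G¹ | y ∈ DQ K m hK ∧ orderOf y = 2 * i} = (fun p : ↥G¹ × ↥G¹ => p.1 * p.2) ''
      (((VG K m hK : Set ↥G¹) \ {1}) ×ˢ {y : ↥G¹ | y ∈ A2 K m hK ∧ orderOf y = i}) := by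
    ext y
    constructor
    · rintro ⟨hy, ho⟩
      obtain ⟨v, hv, a, ha, rfl⟩ := (mem_DQ m hK).1 hy
      have hao : Odd (orderOf a) := hodd.of_dvd_nat (orderOf_dvd_of_pow_eq_one (pow_of_mem_A2 m hK ha))
      have hv1 : v ≠ 1 := fun e => by
        rw [e, one_mul] at ho
        rw [ho] at hao
        exact Nat.not_even_iff_odd.2 hao (even_two_mul i)
      rw [hord hv ha hv1] at ho
      exact ⟨(v, a), ⟨⟨hv, hv1⟩, ha, Nat.eq_of_mul_eq_mul_left (by norm_num) ho⟩, rfl⟩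
    · rintro ⟨⟨v, a⟩, ⟨⟨hv, hv1⟩, ha, ho⟩, rfl⟩
      exact ⟨(mem_DQ m hK).2 ⟨v, hv, a, ha, rfl⟩, by rw [hord hv ha hv1, ho]⟩
  have hW2 : Set.ncard {y : ↥G¹ | y ∈ DQ K m hK ∧ orderOf y = 2 * i} = 3 * Nat.totient i := by
    rw [e2, Set.InjOn.ncard_image, Set.ncard_prod, hW1, Set.ncard_sdiff (by simp [one_mem]),
      ← Nat.card_coe_set_eq (VG K m hK : Set ↥G¹), SetLike.coe_sort_coe, card_VG m hK, Set.ncard_singleton]
    rintro ⟨v, a⟩ ⟨⟨hv, -⟩, ha, -⟩ ⟨v', a'⟩ ⟨⟨hv', -⟩, ha', -⟩ (e : v * a = v' * a')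
    have hd' : a * a'⁻¹ = v⁻¹ * v' := by
      rw [eq_inv_mul_iff_mul_eq, ← mul_assoc, e, mul_inv_cancel_right]
    have h11 := GL0.eq_one_of_sq (M := A2 K m hK) (by rw [card_A2 m hK]; exact hodd) (mul_mem ha (inv_mem ha'))
      (by rw [hd']; exact VG_sq m hK (mul_mem (inv_mem hv) hv'))
    rw [h11, eq_comm, inv_mul_eq_one] at hd'
    exact Prod.ext hd' (mul_inv_eq_one.1 h11)
  have h2 := GL0.card_order (d := 2 * i) (W := {y : ↥G¹ | y ∈ DQ K m hK ∧ orderOf y = 2 * i})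
    (N := Subgroup.normalizer ((VG K m hK : Subgroup ↥G¹) : Set ↥G¹)) (fun y hy => hy.2)
    (fun n hn y hy => ⟨conj_mem_DQ m hK hn hy.1 hAne, by rw [GL0.orderOf_conj', hy.2]⟩)
    (fun y hy g hg => by
      have hsq : ∀ z : ↥G¹, z ∈ DQ K m hK → orderOf z = 2 * i → z ^ 2 ∈ A2 K m hK := fun z hz ho =>
        mem_A2_of_pow m hK (pow_mem hz 2) (by
          rw [← pow_mul, ← orderOf_dvd_iff_pow_eq_one, ho]; exact Nat.mul_dvd_mul_left 2 hd)
      refine fusion_DQ m hK (hsq y hy.1 hy.2) (fun e => ?_) (by rw [← conj_pow]; exact hsq _ hg.1 hg.2)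
      have := orderOf_dvd_of_pow_eq_one e
      rw [hy.2] at this
      have := Nat.le_of_dvd (by norm_num) this
      omega)
    (fun y hy => by
      obtain ⟨g, hg⟩ := conj_into_DQ m hK hm hi hd (Or.inr hy)
      exact ⟨g, hg, by rw [GL0.orderOf_conj', hy]⟩)
  rw [card_normalizer_VG m hK, card_group_sq m hK] at h1 h2
  rw [hW1] at h1
  rw [hW2] at h2
  have hq : 3 ≤ qq := Nat.le_self_pow (by omega) 3
  rw [show qq ^ 2 - 1 = (qq + 1) * (qq - 1) by
    rw [show (1 : ℕ) = 1 ^ 2 from rfl, Nat.sq_sub_sq]; simp] at h1 h2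
  constructor
  · refine Nat.eq_of_mul_eq_mul_right (show 0 < qq + 1 by omega) ?_
    linear_combination h1
  · refine Nat.eq_of_mul_eq_mul_right (show 0 < 3 * (qq + 1) by omega) ?_
    linear_combination h2

include hK in
theorem count_torus (hm : 1 ≤ m) {x x' : ↥G¹} (hx : IsTorusElt m x)
    (hcop : Nat.Coprime (Nat.card ↥(Subgroup.centralizer {x})) (Nat.card ↥(Subgroup.centralizer {x'})))
    (hall : ∀ y : ↥G¹, y ≠ 1 → y ^ Nq m = 1 →
      (∃ g : ↥G¹, g * y * g⁻¹ ∈ Subgroup.centralizer {x}) ∨ ∃ g : ↥G¹, g * y * g⁻¹ ∈ Subgroup.centralizer {x'})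
    (hn : Nat.card ↥(Subgroup.normalizer ((Subgroup.centralizer {x} : Subgroup ↥G¹) : Set ↥G¹)) =
      6 * Nat.card ↥(Subgroup.centralizer {x}))
    {i : ℕ} (hi : 1 < i) (hd : i ∣ Nat.card ↥(Subgroup.centralizer {x})) :
    6 * Nat.card {y : ↥G¹ // orderOf y = i} * Nat.card ↥(Subgroup.centralizer {x}) =
      Nat.totient i * Nat.card ↥G¹ := by
  haveI := isCyclic_torus_elt m hK hm hx
  have h := GL0.card_order (d := i) (W := {y : ↥G¹ | y ∈ Subgroup.centralizer {x} ∧ orderOf y = i})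
    (N := Subgroup.normalizer ((Subgroup.centralizer {x} : Subgroup ↥G¹) : Set ↥G¹)) (fun y hy => hy.2)
    (fun n hn y hy => ⟨(Subgroup.mem_normalizer_iff.1 hn y).1 hy.1, by rw [GL0.orderOf_conj', hy.2]⟩)
    (fun y hy g hg => by
      have hne : ∀ z : ↥G¹, orderOf z = i → z ≠ 1 := fun z hz e => by rw [e, orderOf_one] at hz; omega
      refine GL0.mem_normalizer_of_conj_le fun a ha => ?_
      rw [← centralizer_torus_elt m hK hm hx hg.1 (hne _ hg.2), Subgroup.mem_centralizer_singleton_iff,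
        show g * a * g⁻¹ * (g * y * g⁻¹) = g * (a * y) * g⁻¹ by group, torus_comm m hK hx ha hy.1]
      group)
    (fun y hy => by
      have hN : y ^ Nq m = 1 := orderOf_dvd_iff_pow_eq_one.1 (hy.symm ▸ hd.trans (card_torus_dvd m hK hm hx))
      rcases hall y (fun e => by rw [e, orderOf_one] at hy; omega) hN with ⟨g, hg⟩ | ⟨g, hg⟩
      · exact ⟨g, hg, by rw [GL0.orderOf_conj', hy]⟩
      · exfalso
        have h' := orderOf_dvd_natCard (⟨_, hg⟩ : ↥(Subgroup.centralizer {x'}))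
        rw [Subgroup.orderOf_mk, GL0.orderOf_conj', hy] at h'
        exact hi.ne' (Nat.eq_one_of_dvd_coprimes hcop hd h'))
  rw [hn, GL0.ncard_orderOf_cyclic hd] at h
  linear_combination h

include hK in
/-- The numbers of elements of each order. -/
theorem order_counts (hm : 1 ≤ m) :
    Nat.card {g : ↥G¹ // orderOf g = 2} = qq ^ 2 * (qq ^ 2 - qq + 1) ∧
    Nat.card {g : ↥G¹ // orderOf g = 3} = (qq ^ 2 - 1) * (qq ^ 3 + 1) ∧
    Nat.card {g : ↥G¹ // orderOf g = 6} = qq ^ 2 * (qq - 1) * (qq ^ 3 + 1) ∧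
    Nat.card {g : ↥G¹ // orderOf g = 9} = qq ^ 2 * (qq - 1) * (qq ^ 3 + 1) ∧
    (∀ i : ℕ, 2 < i → i ∣ qq - 1 →
      2 * Nat.card {g : ↥G¹ // orderOf g = i} = Nat.totient i * qq ^ 3 * (qq ^ 3 + 1)) ∧
    (∀ i : ℕ, 1 < i → i ∣ k₂ →
      6 * Nat.card {g : ↥G¹ // orderOf g = i} = Nat.totient i * qq ^ 3 * (qq - 1) * (qq ^ 2 - qq + 1) ∧
        2 * Nat.card {g : ↥G¹ // orderOf g = 2 * i} = Nat.totient i * qq ^ 3 * (qq - 1) * (qq ^ 2 - qq + 1)) ∧
    (∀ i : ℕ, 1 < i → i ∣ qq - 3 ^ (m + 1) + 1 →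
      6 * Nat.card {g : ↥G¹ // orderOf g = i} = Nat.totient i * qq ^ 3 * (qq ^ 2 - 1) * (qq + 3 ^ (m + 1) + 1)) ∧
    (∀ i : ℕ, 1 < i → i ∣ qq + 3 ^ (m + 1) + 1 →
      6 * Nat.card {g : ↥G¹ // orderOf g = i} = Nat.totient i * qq ^ 3 * (qq ^ 2 - 1) * (qq - 3 ^ (m + 1) + 1)) := by
  obtain ⟨x₁, x₂, hx₁, hx₂, hc₁, hc₂, hn₁, hn₂, hcop, hall⟩ := exists_tori (K := K) m hK hm
  have hr : 3 ^ (m + 1) ≤ qq := Nat.pow_le_pow_right (by norm_num) (by omega)
  have hq2 : qq ≤ qq ^ 2 := Nat.le_self_pow two_ne_zero _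
  have hprod : qq ^ 2 - qq + 1 = (qq - 3 ^ (m + 1) + 1) * (qq + 3 ^ (m + 1) + 1) := by
    zify [hr, hq2]
    have : ((3 : ℤ) ^ (m + 1)) ^ 2 = 3 * 3 ^ (2 * m + 1) := by
      rw [← pow_mul, ← pow_succ']; congr 1; ring
    linear_combination this
  refine ⟨count_two m hK, count_three m hK, count_six m hK, count_nine m hK, fun i => count_split m hK hm,
    fun i => count_nonsplit m hK hm, fun i h1 hd => ?_, fun i h1 hd => ?_⟩
  · have h := count_torus m hK hm hx₁ hcop hall hn₁ h1 (hc₁ ▸ hd)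
    rw [hc₁, card_group_sq m hK, hprod] at h
    refine Nat.eq_of_mul_eq_mul_right (show 0 < qq - 3 ^ (m + 1) + 1 by omega) ?_
    linear_combination h
  · have h := count_torus m hK hm hx₂ hcop.symm (fun y a b => (hall y a b).symm) hn₂ h1 (hc₂ ▸ hd)
    rw [hc₂, card_group_sq m hK, hprod] at h
    refine Nat.eq_of_mul_eq_mul_right (show 0 < qq + 3 ^ (m + 1) + 1 by omega) ?_
    linear_combination h

end CfsgLib.Chev.Ree
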