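import Cfsg.Agent.Chev.Ree.Cosets

/-! The multiplication of the unipotent subgroup of a small Ree group, in coordinates. -/

set_option autoImplicit false
set_option maxRecDepth 100000
set_option linter.style.haveILetI false
set_option linter.unusedSectionVars false

namespace CfsgLib.Chev.Ree

open Cfsg.Lie CfsgLib.Chev Matrix

universe u

/-- The pairs of roots commuting in characteristic three. -/
def lawPairs : List (ℕ × ℕ) := [(9, 7), (10, 7), (11, 7), (8, 6), (9, 6), (11, 6), (10, 11), (9, 11), (8, 11)]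

theorem law_check :
    (lawPairs.all fun x => sameWordMod 3 DataG2.tbl [(x.1, va), (x.2, vb)] [(x.2, vb), (x.1, va)]) = true ∧
    sameWordMod 3 DataG2.tbl [(8, vb), (7, va)] [(7, va), (8, vb), (9, [(-1, 1, 1)])] = true ∧
    sameWordMod 3 DataG2.tbl [(10, vb), (6, va)] [(6, va), (10, vb), (11, [(-1, 1, 1)])] = true :=
  ⟨by decide +kernel, by decide +kernel, by decide +kernel⟩

variable {K : Type u} [Field K] [Finite K] [CharP K 3] (m : ℕ)

local notation "θ" => (3 ^ m : ℕ)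

theorem lawPair_comm {r s : ℕ} (h : (r, s) ∈ lawPairs) (a b : K) : Commute (SG.xU r a) (SG.xU s b) := by
  have := List.all_eq_true.1 law_check.1 _ h
  have e := wU_eq_of_sameWordMod (F := K) (p := 3) DataG2.valid a b this
  simpa [Commute, SemiconjBy, Sys.wU, wordVal, pev, va, vb] using e

theorem X_x7 (r s u v p : K) : X r s u v * SG.xU 7 p = SG.xU 7 p * X r (s - r * p) u v := by
  have h := wU_eq_of_sameWordMod (F := K) (p := 3) DataG2.valid p r law_check.2.1
  have e : SG.xU 8 r * SG.xU 7 p = SG.xU 7 p * SG.xU 8 r * SG.xU 9 (-(p * r)) := by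
    simpa [Sys.wU, wordVal, pev, va, vb, mul_assoc] using h
  have c9 := lawPair_comm (K := K) (r := 9) (s := 7) (by decide) s p
  have c10 := lawPair_comm (K := K) (r := 10) (s := 7) (by decide) u p
  have c11 := lawPair_comm (K := K) (r := 11) (s := 7) (by decide) v p
  simp only [X]
  calc SG.xU 8 r * SG.xU 9 s * SG.xU 10 u * SG.xU 11 v * SG.xU 7 p
      = SG.xU 8 r * (SG.xU 9 s * SG.xU 10 u * SG.xU 11 v * SG.xU 7 p) := by group
    _ = SG.xU 8 r * (SG.xU 7 p * (SG.xU 9 s * SG.xU 10 u * SG.xU 11 v)) := by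
        rw [((c9.mul_left c10).mul_left c11).eq]
    _ = SG.xU 8 r * SG.xU 7 p * (SG.xU 9 s * SG.xU 10 u * SG.xU 11 v) := by group
    _ = SG.xU 7 p * SG.xU 8 r * SG.xU 9 (-(p * r)) * (SG.xU 9 s * SG.xU 10 u * SG.xU 11 v) := by rw [e]
    _ = SG.xU 7 p * (SG.xU 8 r * (SG.xU 9 (-(p * r)) * SG.xU 9 s) * SG.xU 10 u * SG.xU 11 v) := by group
    _ = _ := by rw [Sys.xU_add, show -(p * r) + s = s - r * p by ring]

theorem X_x6 (r s u v q : K) : X r s u v * SG.xU 6 q = SG.xU 6 q * X r s u (v - u * q) := by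
  have h := wU_eq_of_sameWordMod (F := K) (p := 3) DataG2.valid q u law_check.2.2
  have e : SG.xU 10 u * SG.xU 6 q = SG.xU 6 q * SG.xU 10 u * SG.xU 11 (-(q * u)) := by
    simpa [Sys.wU, wordVal, pev, va, vb, mul_assoc] using h
  have c8 := lawPair_comm (K := K) (r := 8) (s := 6) (by decide) r q
  have c9 := lawPair_comm (K := K) (r := 9) (s := 6) (by decide) s q
  have c11 := lawPair_comm (K := K) (r := 11) (s := 6) (by decide) v q
  simp only [X]
  calc SG.xU 8 r * SG.xU 9 s * SG.xU 10 u * SG.xU 11 v * SG.xU 6 q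
      = SG.xU 8 r * SG.xU 9 s * SG.xU 10 u * (SG.xU 11 v * SG.xU 6 q) := by group
    _ = SG.xU 8 r * SG.xU 9 s * (SG.xU 10 u * SG.xU 6 q) * SG.xU 11 v := by rw [c11.eq]; group
    _ = SG.xU 8 r * SG.xU 9 s * SG.xU 6 q * SG.xU 10 u * (SG.xU 11 (-(q * u)) * SG.xU 11 v) := by rw [e]; group
    _ = SG.xU 6 q * (SG.xU 8 r * SG.xU 9 s) * SG.xU 10 u * (SG.xU 11 (-(q * u)) * SG.xU 11 v) := by
        rw [(c8.mul_left c9).eq]
    _ = _ := by rw [Sys.xU_add, show -(q * u) + v = v - u * q by ring]; group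

/-- The product of two elements of `U`. -/
theorem W_mul (p q r s u v p' q' r' s' u' v' : K) :
    W p q r s u v * W p' q' r' s' u' v' =
      W (p + p') (q + q') (q * p' + r + r') (p' ^ 2 * q + (s - r * p') + s') (-(p' ^ 3 * q) + u + u')
        (-(p' ^ 3 * q ^ 2) + v - (-(p' ^ 3 * q) + u) * q' + v') := by
  simp only [W]
  calc SG.xU 7 p * SG.xU 6 q * X r s u v * (SG.xU 7 p' * SG.xU 6 q' * X r' s' u' v')
      = SG.xU 7 p * SG.xU 6 q * (X r s u v * SG.xU 7 p') * SG.xU 6 q' * X r' s' u' v' := by group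
    _ = SG.xU 7 p * (SG.xU 6 q * SG.xU 7 p' * X r (s - r * p') u v) * SG.xU 6 q' * X r' s' u' v' := by
        rw [X_x7]; group
    _ = SG.xU 7 p * W p' q (p' * q + r) (p' ^ 2 * q + (s - r * p')) (-(p' ^ 3 * q) + u) (-(p' ^ 3 * q ^ 2) + v) *
          SG.xU 6 q' * X r' s' u' v' := by rw [swap_rule]
    _ = (SG.xU 7 p * SG.xU 7 p') * SG.xU 6 q *
          (X (p' * q + r) (p' ^ 2 * q + (s - r * p')) (-(p' ^ 3 * q) + u) (-(p' ^ 3 * q ^ 2) + v) * SG.xU 6 q') *
            X r' s' u' v' := by simp only [W]; group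
    _ = (SG.xU 7 p * SG.xU 7 p') * (SG.xU 6 q * SG.xU 6 q') *
          (X (p' * q + r) (p' ^ 2 * q + (s - r * p')) (-(p' ^ 3 * q) + u)
            (-(p' ^ 3 * q ^ 2) + v - (-(p' ^ 3 * q) + u) * q') * X r' s' u' v') := by rw [X_x6]; group
    _ = _ := by rw [Sys.xU_add, Sys.xU_add, X_mul, mul_comm p' q]

variable (hK : Nat.card K = 3 ^ (2 * m + 1))

include hK in
/-- The group law of the unipotent group. -/
theorem WR_mul (t u v t' u' v' : K) : WR m t u v * WR m t' u' v' =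
    WR m (t + t') (u + u' - t' ^ (3 * θ) * t)
      (v + v' - t' ^ (3 * θ) * t ^ 2 - (u - t' ^ (3 * θ) * t) * t') := by
  obtain ⟨t₀, u₀, v₀, e⟩ := exists_WR m hK (g := WR m t u v * WR m t' u' v')
    (mul_mem (W_mem _ _ _ _ _ _) (W_mem _ _ _ _ _ _)) (mul_mem (WR_fixed m hK t u v) (WR_fixed m hK t' u' v'))
  have e' := e
  rw [WR, WR, WR, W_mul] at e'
  obtain ⟨-, h2, -, -, h5, h6⟩ := W_inj e'
  rw [e, show t + t' = t₀ from h2]
  congr 1
  · rw [← h5, show t' ^ (3 * θ) = (t' ^ θ) ^ 3 by ring]; ring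
  · rw [← h6, show t' ^ (3 * θ) = (t' ^ θ) ^ 3 by ring]; ring

end CfsgLib.Chev.Ree
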