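import Cfsg.Agent.Chev.Ree.HallApps

/-! Solvable subgroups of a small Ree group lie in local normalisers. -/

set_option autoImplicit false
set_option maxRecDepth 100000
set_option linter.style.haveILetI false
set_option linter.unusedSectionVars false

namespace CfsgLib.Chev.Ree

open Cfsg.Lie CfsgLib.Chev Matrix CfsgLib.SL2

universe u

namespace GL0

variable {G : Type*} [Group G]

/-- A non-trivial solvable subgroup normalises a non-trivial elementary abelian group inside it. -/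
theorem exists_elem_normal [Finite G] {S : Subgroup G} (hS : Group.IsSolvable ↥S) (hne : S ≠ ⊥) :
    ∃ (p : ℕ) (Q : Subgroup G), p.Prime ∧ Q ≤ S ∧ Q ≠ ⊥ ∧ (∀ x ∈ Q, x ^ p = 1) ∧
      (∀ x ∈ Q, ∀ y ∈ Q, x * y = y * x) ∧ S ≤ Subgroup.normalizer (Q : Set G) := by
  classical
  haveI := hS
  have htop : derivedSeries ↥S 0 ≠ ⊥ := by
    rw [derivedSeries_zero]
    haveI : Nontrivial ↥S := (Subgroup.nontrivial_iff_ne_bot S).2 hne
    exact top_ne_bot
  obtain ⟨N, hN⟩ := (Group.isSolvable_def ↥S).1 hS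
  have hex : ∃ n, derivedSeries ↥S (n + 1) = ⊥ := ⟨N, le_bot_iff.1 (hN ▸ derivedSeries_antitone ↥S (Nat.le_succ N))⟩
  set k := Nat.find hex with hk
  set M := derivedSeries ↥S k with hM
  have hM1 : derivedSeries ↥S (k + 1) = ⊥ := Nat.find_spec hex
  have hMne : M ≠ ⊥ := by
    rcases Nat.eq_zero_or_pos k with h0 | h0
    · rw [hM, h0]; exact htop
    · intro e
      have := Nat.find_min hex (show k - 1 < k by omega)
      rw [show k - 1 + 1 = k by omega] at this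
      exact this e
  have hMc : ∀ x ∈ M, ∀ y ∈ M, x * y = y * x := fun x hx y hy => by
    have h := Subgroup.commutator_mem_commutator hx hy
    rw [← derivedSeries_succ, hM1, Subgroup.mem_bot] at h
    exact commutatorElement_eq_one_iff_mul_comm.1 h
  obtain ⟨p, hp, hpd⟩ := Nat.exists_prime_and_dvd (n := Nat.card ↥M)
    (fun e => hMne (Subgroup.card_eq_one.1 e))
  haveI : Fact p.Prime := ⟨hp⟩
  obtain ⟨⟨z, hzM⟩, hzo⟩ := exists_prime_orderOf_dvd_card' p hpd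
  rw [Subgroup.orderOf_mk] at hzo
  let Q₀ : Subgroup ↥S :=
    { carrier := {x | x ∈ M ∧ x ^ p = 1}
      mul_mem' := fun {a b} ha hb => ⟨mul_mem ha.1 hb.1, by
        rw [(show Commute a b from hMc a ha.1 b hb.1).mul_pow, ha.2, hb.2, one_mul]⟩
      one_mem' := ⟨one_mem _, one_pow _⟩
      inv_mem' := fun {a} ha => ⟨inv_mem ha.1, by rw [inv_pow, ha.2, inv_one]⟩ }
  refine ⟨p, Q₀.map S.subtype, hp, Subgroup.map_subtype_le _, fun e => ?_, ?_, ?_, ?_⟩
  · have hz : z ∈ Q₀ := ⟨hzM, by rw [← hzo, pow_orderOf_eq_one]⟩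
    have : (z : G) = 1 := Subgroup.mem_bot.1 (e ▸ ⟨z, hz, rfl⟩)
    rw [show z = 1 from Subtype.ext this, orderOf_one] at hzo
    exact hp.one_lt.ne hzo
  · rintro _ ⟨x, hx, rfl⟩
    rw [← map_pow, hx.2, map_one]
  · rintro _ ⟨x, hx, rfl⟩ _ ⟨y, hy, rfl⟩
    rw [← map_mul, ← map_mul, hMc x hx.1 y hy.1]
  · intro g hg
    refine mem_normalizer_of_conj_le ?_
    rintro _ ⟨x, hx, rfl⟩
    refine ⟨⟨g, hg⟩ * x * ⟨g, hg⟩⁻¹, ⟨(derivedSeries_normal ↥S k).conj_mem x hx.1 _, ?_⟩, rfl⟩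
    rw [conj_pow, hx.2, mul_one, mul_inv_cancel]

theorem conj_mem_map {H : Subgroup G} {g x : G} : x ∈ H.map (MulAut.conj g).toMonoidHom ↔ g⁻¹ * x * g ∈ H := by
  rw [Subgroup.mem_map_equiv, MulAut.conj_symm_apply]

theorem isCyclic_map_conj {H : Subgroup G} [IsCyclic ↥H] (g : G) :
    IsCyclic ↥(H.map (MulAut.conj g).toMonoidHom) :=
  isCyclic_of_surjective (Subgroup.equivMapOfInjective H _ (MulEquiv.injective (MulAut.conj g))).toMonoidHom
    (MulEquiv.surjective _)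

theorem card_map_conj (H : Subgroup G) (g : G) : Nat.card ↥(H.map (MulAut.conj g).toMonoidHom) = Nat.card ↥H :=
  (Nat.card_congr (Subgroup.equivMapOfInjective H _ (MulEquiv.injective (MulAut.conj g))).toEquiv).symm

end GL0

variable {K : Type u} [Field K] [Finite K] [CharP K 3] (m : ℕ)

local notation "G¹" => twistedG2 K (3 ^ m)
local notation "k₁" => ((3 ^ (2 * m + 1) - 1) / 2)
local notation "k₂" => ((3 ^ (2 * m + 1) + 1) / 4)
local notation "qq" => (3 ^ (2 * m + 1) : ℕ)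

/-- The subgroups whose normalisers are the local subgroups. -/
def IsLocalBase (A : Subgroup ↥(twistedG2 K (3 ^ m))) : Prop :=
  (∃ P : Sylow 2 ↥(twistedG2 K (3 ^ m)), A = P) ∨ (∃ P : Sylow 3 ↥(twistedG2 K (3 ^ m)), A = P) ∨
    (IsCyclic A ∧ (Nat.card A = k₁ ∨ Nat.card A = k₂ ∨
      Nat.card A = qq - 3 ^ (m + 1) + 1 ∨ Nat.card A = qq + 3 ^ (m + 1) + 1))

variable (hK : Nat.card K = 3 ^ (2 * m + 1))

include hK in
theorem conj_mem_borel {y g : ↥G¹} (hy : (y : GL chevG2.Idx K) ∈ chevG2.posUnipotent K) (hy1 : y ≠ 1)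
    (hg : ((g * y * g⁻¹ : ↥G¹) : GL chevG2.Idx K) ∈ chevG2.posUnipotent K) :
    (g : GL chevG2.Idx K) ∈ chevG2.borelSubgroup K := by
  by_contra hB
  obtain ⟨a, ha, b, hb, e⟩ := exists_unb m hK g.2 hB
  have hbU := borel_conj_pos (Subgroup.mem_inf.1 hb).1 hy
  set Y : GL chevG2.Idx K := (y : GL chevG2.Idx K)
  change (g : GL chevG2.Idx K) * Y * (g : GL chevG2.Idx K)⁻¹ ∈ chevG2.posUnipotent K at hg
  rw [e] at hg
  set P := a⁻¹ * (a * nJ K * b * Y * (a * nJ K * b)⁻¹) * a with hP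
  have hPU : P ∈ chevG2.posUnipotent K :=
    mul_mem (mul_mem (inv_mem (Subgroup.mem_inf.1 ha).1) hg) (Subgroup.mem_inf.1 ha).1
  have h1 : P = 1 := eq_one_of_conj_borel m hK hPU (by
    rw [hP, show (nJ K)⁻¹ * (a⁻¹ * (a * nJ K * b * Y * (a * nJ K * b)⁻¹) * a) * nJ K = b * Y * b⁻¹ by group]
    exact Subgroup.mem_sup_left hbU)
  refine hy1 (Subtype.ext ?_)
  calc Y = b⁻¹ * (nJ K)⁻¹ * P * nJ K * b := by rw [hP]; group
    _ = 1 := by rw [h1]; group

include hK in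
theorem exists_UG : ∃ U : Sylow 3 ↥G¹, ∀ g : ↥G¹,
    g ∈ (U : Subgroup ↥G¹) ↔ (g : GL chevG2.Idx K) ∈ chevG2.posUnipotent K := by
  haveI : Fact (Nat.Prime 3) := ⟨Nat.prime_three⟩
  have hU : Nat.card ↥((chevG2.posUnipotent K ⊓ G¹).subgroupOf G¹) = qq ^ 3 := by
    rw [Nat.card_congr (Subgroup.subgroupOfEquivOfLe inf_le_right).toEquiv, card_pos_inf m hK]
  refine ⟨Sylow.ofCard ((chevG2.posUnipotent K ⊓ G¹).subgroupOf G¹) ?_, fun g => ?_⟩
  · have hr : ¬ 3 ∣ (qq - 1) * (qq ^ 3 + 1) := fun h => by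
      have hq : 1 ≤ qq := Nat.one_le_pow _ _ (by norm_num)
      have hd : (3 : ℕ) ∣ qq := dvd_pow_self 3 (by omega)
      rcases Nat.prime_three.dvd_mul.1 h with h | h
      · omega
      · have := dvd_pow hd (show 3 ≠ 0 by norm_num); omega
    have hr0 : (qq - 1) * (qq ^ 3 + 1) ≠ 0 := fun h => hr (by rw [h]; exact dvd_zero 3)
    rw [hU, card_group m hK, mul_assoc, Nat.factorization_mul (by positivity) hr0, Finsupp.add_apply,
      Nat.factorization_eq_zero_of_not_dvd hr, add_zero, ← pow_mul, Nat.factorization_pow]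
    simp [Nat.prime_three.factorization_self]
  · show g ∈ (chevG2.posUnipotent K ⊓ G¹).subgroupOf G¹ ↔ _
    rw [Subgroup.mem_subgroupOf, Subgroup.mem_inf]
    exact and_iff_left g.2

include hK in
theorem local_three {Q : Subgroup ↥G¹} (hQ : IsPGroup 3 ↥Q) (hne : Q ≠ ⊥) :
    ∃ A : Subgroup ↥G¹, Subgroup.normalizer (Q : Set ↥G¹) ≤ Subgroup.normalizer (A : Set ↥G¹) ∧ IsLocalBase m A := by
  haveI : Fact (Nat.Prime 3) := ⟨Nat.prime_three⟩
  obtain ⟨U, hU⟩ := exists_UG (K := K) m hK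
  obtain ⟨P, hP⟩ := hQ.exists_le_sylow
  refine ⟨P, ?_, Or.inr (Or.inl ⟨P, rfl⟩)⟩
  obtain ⟨a, ha⟩ := MulAction.exists_smul_eq ↥G¹ P U
  have hmem : ∀ x : ↥G¹, x ∈ (P : Subgroup ↥G¹) ↔
      ((a * x * a⁻¹ : ↥G¹) : GL chevG2.Idx K) ∈ chevG2.posUnipotent K := fun x => by
    rw [← hU, ← ha, Sylow.coe_subgroup_smul, Subgroup.mem_pointwise_smul_iff_inv_smul_mem, ← map_inv,
      MulAut.smul_def, MulAut.conj_apply, inv_inv, show a⁻¹ * (a * x * a⁻¹) * a = x by group]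
  obtain ⟨⟨y, hy⟩, hy1⟩ := Subgroup.ne_bot_iff_exists_ne_one.1 hne
  have hy1' : y ≠ 1 := fun e => hy1 (Subtype.ext e)
  intro g hg
  have hB := conj_mem_borel m hK (y := a * y * a⁻¹) (g := a * g * a⁻¹) ((hmem y).1 (hP hy))
    (fun e => hy1' (conj_eq_one_iff.1 e)) (by
      rw [show a * g * a⁻¹ * (a * y * a⁻¹) * (a * g * a⁻¹)⁻¹ = a * (g * y * g⁻¹) * a⁻¹ by group]
      exact (hmem _).1 (hP ((Subgroup.mem_normalizer_iff.1 hg y).1 hy)))
  refine GL0.mem_normalizer_of_conj_le fun x hx => (hmem _).2 ?_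
  rw [show a * (g * x * g⁻¹) * a⁻¹ = (a * g * a⁻¹) * (a * x * a⁻¹) * (a * g * a⁻¹)⁻¹ by group]
  exact borel_conj_pos hB ((hmem x).1 hx)

include hK in
theorem local_cyclic {Q : Subgroup ↥G¹} (hne : Q ≠ ⊥) {A : Subgroup ↥G¹} [IsCyclic ↥A] {g : ↥G¹}
    (hA : ∀ A₀ : Subgroup ↥G¹, A₀ ≤ A → A₀ ≠ ⊥ → Subgroup.normalizer (A₀ : Set ↥G¹) = Subgroup.normalizer (A : Set ↥G¹))
    (hle : Q.map (MulAut.conj g).toMonoidHom ≤ A)
    (hc : Nat.card A = k₁ ∨ Nat.card A = k₂ ∨ Nat.card A = qq - 3 ^ (m + 1) + 1 ∨ Nat.card A = qq + 3 ^ (m + 1) + 1) :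
    ∃ B : Subgroup ↥G¹, Subgroup.normalizer (Q : Set ↥G¹) ≤ Subgroup.normalizer (B : Set ↥G¹) ∧ IsLocalBase m B := by
  refine ⟨A.map (MulAut.conj g⁻¹).toMonoidHom, fun y hy => ?_, Or.inr (Or.inr ⟨GL0.isCyclic_map_conj _, by
    rw [GL0.card_map_conj]; exact hc⟩)⟩
  have h1 : Q.map (MulAut.conj g).toMonoidHom ≠ ⊥ := fun e =>
    hne ((Subgroup.map_eq_bot_iff_of_injective _ (MulEquiv.injective (MulAut.conj g))).1 e)
  have hy' : g * y * g⁻¹ ∈ Subgroup.normalizer (A : Set ↥G¹) := by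
    rw [← hA _ hle h1]
    refine GL0.mem_normalizer_of_conj_le fun x hx => GL0.conj_mem_map.2 ?_
    have := (Subgroup.mem_normalizer_iff.1 hy _).1 (GL0.conj_mem_map.1 hx)
    rwa [show g⁻¹ * (g * y * g⁻¹ * x * (g * y * g⁻¹)⁻¹) * g = y * (g⁻¹ * x * g) * y⁻¹ by group]
  refine GL0.mem_normalizer_of_conj_le fun x hx => GL0.conj_mem_map.2 ?_
  have := (Subgroup.mem_normalizer_iff.1 hy' _).1 (GL0.conj_mem_map.1 hx)
  rwa [show g⁻¹⁻¹ * (y * x * y⁻¹) * g⁻¹ = g * y * g⁻¹ * (g⁻¹⁻¹ * x * g⁻¹) * (g * y * g⁻¹)⁻¹ by group]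

include hK in
theorem local_odd (hm : 1 ≤ m) {Q : Subgroup ↥G¹} {p : ℕ} (hp : p.Prime) (hp2 : p ≠ 2) (hQ : IsPGroup p ↥Q)
    (hne : Q ≠ ⊥) :
    ∃ A : Subgroup ↥G¹, Subgroup.normalizer (Q : Set ↥G¹) ≤ Subgroup.normalizer (A : Set ↥G¹) ∧ IsLocalBase m A := by
  haveI : Fact p.Prime := ⟨hp⟩
  rcases eq_or_ne p 3 with rfl | hp3
  · exact local_three m hK hQ hne
  obtain ⟨P, hP⟩ := hQ.exists_le_sylow
  haveI := isCyclic_sylow m hK hm (by have := hp.two_le; omega) P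
  haveI : IsCyclic ↥Q := isCyclic_of_injective (Subgroup.inclusion hP) (Subgroup.inclusion_injective _)
  obtain ⟨⟨a, ha⟩, hgen⟩ := IsCyclic.exists_generator (α := ↥Q)
  have hQz : Q = Subgroup.zpowers a := le_antisymm (fun x hx => by
    obtain ⟨i, hi⟩ := Subgroup.mem_zpowers_iff.1 (hgen ⟨x, hx⟩)
    exact Subgroup.mem_zpowers_iff.2 ⟨i, congrArg Subtype.val hi⟩) (Subgroup.zpowers_le.2 ha)
  have ha1 : a ≠ 1 := fun e => hne (by rw [hQz, e, Subgroup.zpowers_one_eq_bot])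
  obtain ⟨n, hn⟩ := hQ ⟨a, ha⟩
  have hn' : a ^ p ^ n = 1 := congrArg Subtype.val hn
  obtain ⟨i, -, ho⟩ := (Nat.dvd_prime_pow hp).1 (orderOf_dvd_of_pow_eq_one hn')
  have hd : p ∣ Nat.card ↥G¹ :=
    ((dvd_pow_self p (fun e : i = 0 => ha1 (orderOf_eq_one_iff.1 (by rw [ho, e, pow_zero])))).trans
      (dvd_of_eq ho.symm)).trans (orderOf_dvd_natCard a)
  have hle : ∀ {A : Subgroup ↥G¹} {g : ↥G¹}, g * a * g⁻¹ ∈ A → Q.map (MulAut.conj g).toMonoidHom ≤ A := by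
    intro A g hg
    rw [hQz, MonoidHom.map_zpowers, Subgroup.zpowers_le]
    exact hg
  obtain ⟨x₁, x₂, hx₁, hx₂, hc₁, hc₂, -, -, -, hall⟩ := exists_tori (K := K) m hK hm
  rw [card_group_Nq m hK] at hd
  rcases hp.dvd_mul.1 hd with hd | hd
  · rcases hp.dvd_mul.1 hd with hd | hd
    · rcases hp.dvd_mul.1 hd with hd | hd
      · exact absurd ((Nat.prime_dvd_prime_iff_eq hp Nat.prime_three).1 (hp.dvd_of_dvd_pow (hp.dvd_of_dvd_pow hd))) hp3
      · rw [← (k1_facts (K := K) m hK).1] at hd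
        have h1 := (hp.dvd_mul.1 hd).resolve_left fun e => hp2 ((Nat.prime_dvd_prime_iff_eq hp Nat.prime_two).1 e)
        obtain ⟨g, hg⟩ := conj_into_A1 m hK hp h1 hn'
        haveI := isCyclic_A1 (K := K) m hK
        refine local_cyclic m hK hne (fun A₀ h h' => ?_) (hle hg) (Or.inl (card_A1 m hK))
        have hA : A1 K m ≠ ⊥ := fun e => h' (le_bot_iff.1 (e ▸ h))
        rw [normalizer_A1 m hK h h', normalizer_A1 m hK le_rfl hA]
    · rw [← (k2_facts (K := K) m hK).1] at hd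
      have h1 := (hp.dvd_mul.1 hd).resolve_left fun e =>
        hp2 ((Nat.prime_dvd_prime_iff_eq hp Nat.prime_two).1 (hp.dvd_of_dvd_pow (show p ∣ 2 ^ 2 from e)))
      obtain ⟨g, hg⟩ := conj_into_A2 m hK hp h1 hn'
      haveI := isCyclic_A2 (K := K) m hK
      refine local_cyclic m hK hne (fun A₀ h h' => ?_) (hle hg) (Or.inr (Or.inl (card_A2 m hK)))
      have hA : A2 K m hK ≠ ⊥ := fun e => h' (le_bot_iff.1 (e ▸ h))
      rw [normalizer_A2 m hK h h', normalizer_A2 m hK le_rfl hA]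
  · obtain ⟨-, hq3, hqm, hqp, -, -⟩ := prime_dvd_Nq m hp hd
    have hN : a ^ Nq m = 1 := by
      rw [← orderOf_dvd_iff_pow_eq_one]
      have h := orderOf_dvd_natCard a
      rw [card_group_Nq m hK] at h
      refine Nat.Coprime.dvd_of_dvd_mul_left ?_ h
      rw [ho]
      refine Nat.Coprime.pow_left _ ?_
      rw [hp.coprime_iff_not_dvd, hp.dvd_mul, hp.dvd_mul]
      rintro ((h | h) | h)
      · exact hq3 ((Nat.prime_dvd_prime_iff_eq hp Nat.prime_three).1 (hp.dvd_of_dvd_pow (hp.dvd_of_dvd_pow h)))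
      · exact hqm h
      · exact hqp h
    rcases hall a ha1 hN with ⟨g, hg⟩ | ⟨g, hg⟩
    · haveI := isCyclic_torus_elt m hK hm hx₁
      exact local_cyclic m hK hne (fun A₀ h h' => normalizer_torus m hK hm hx₁ h h') (hle hg)
        (Or.inr (Or.inr (Or.inl hc₁)))
    · haveI := isCyclic_torus_elt m hK hm hx₂
      exact local_cyclic m hK hne (fun A₀ h h' => normalizer_torus m hK hm hx₂ h h') (hle hg)
        (Or.inr (Or.inr (Or.inr hc₂)))

include hK in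
theorem psl_involution_conj {x : ProjectiveSpecialLinearGroup (Fin 2) K} (h2 : x * x = 1) (h1 : x ≠ 1) :
    ∃ w, w * x * w⁻¹ = wP K := by
  obtain ⟨g, hg, ht⟩ := tr_zero_of_involution m hK h2 h1
  obtain ⟨a, ha⟩ := isConj_iff.1 (isConj_of_tr_eq' (h := wE) (tr_zero_sq_ne_four two_ne_zero' ht)
    (ht.trans tr_wE.symm))
  exact ⟨proj a, by rw [← hg, ← map_inv, ← map_mul, ← map_mul, ha]; rfl⟩

include hK in
/-- All four groups are conjugate. -/
theorem four_conj {V : Subgroup ↥G¹} (hV : Nat.card V = 4) (h2 : ∀ x ∈ V, x * x = 1) : ∃ a : ↥G¹,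
    ((V.map (MulAut.conj a).toMonoidHom : Subgroup ↥G¹) : Set ↥G¹) =
      {1, hmG K m, psl K m hK (wP K), hmG K m * psl K m hK (wP K)} := by
  haveI : Nontrivial ↥V := Finite.one_lt_card_iff_nontrivial.1 (by omega)
  obtain ⟨⟨i, hiV⟩, hi1⟩ := exists_ne (1 : ↥V)
  obtain ⟨a, ha⟩ := isConj_iff.1 (isConj_hm m hK (h2 i hiV) (fun e => hi1 (Subtype.ext e)))
  set V' := V.map (MulAut.conj a).toMonoidHom with hV'
  have hm' : hmG K m ∈ V' := ⟨i, hiV, ha⟩
  have h2' : ∀ x ∈ V', x * x = 1 := by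
    rintro _ ⟨x, hx, rfl⟩
    rw [← map_mul, h2 x hx, map_one]
  have hc' : ∀ x ∈ V', ∀ y ∈ V', x * y = y * x := fun x hx y hy => by
    have h := h2' _ (mul_mem hx hy)
    calc x * y = (x * y)⁻¹ := (inv_eq_of_mul_eq_one_right h).symm
      _ = y⁻¹ * x⁻¹ := _root_.mul_inv_rev x y
      _ = y * x := by rw [inv_eq_of_mul_eq_one_right (h2' x hx), inv_eq_of_mul_eq_one_right (h2' y hy)]
  have hcard : Nat.card ↥V' = 4 := by rw [hV', GL0.card_map_conj, hV]
  obtain ⟨s, hs, hs1, hs2⟩ : ∃ s ∈ V', s ≠ 1 ∧ s ≠ hmG K m := by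
    by_contra hcon
    push Not at hcon
    have hsub : (V' : Set ↥G¹) ⊆ {1, hmG K m} := fun x hx => by
      rcases eq_or_ne x 1 with rfl | hx1
      · exact Or.inl rfl
      · exact Or.inr (hcon x hx hx1)
    have h := Set.ncard_le_ncard hsub
    rw [← Nat.card_coe_set_eq, SetLike.coe_sort_coe, hcard] at h
    have := Set.ncard_insert_le (1 : ↥G¹) {hmG K m}
    rw [Set.ncard_singleton] at this
    omega
  obtain ⟨x, hx, hx1, hxx⟩ : ∃ x, psl K m hK x ∈ V' ∧ x ≠ 1 ∧ x * x = 1 := by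
    obtain ⟨x, hx | hx⟩ := mem_centralizer_hm m hK (hc' _ hm' s hs)
    · refine ⟨x, hx ▸ hs, fun e => hs1 (by rw [hx, e, map_one]), psl_injective m hK ?_⟩
      rw [map_mul, map_one, h2' _ (hx ▸ hs)]
    · have hps : psl K m hK x ∈ V' := by
        have := mul_mem hm' hs
        rwa [hx, ← mul_assoc, hmG_mul_self m hK, one_mul] at this
      exact ⟨x, hps, fun e => hs2 (by rw [hx, e, map_one, mul_one]),
        psl_injective m hK (by rw [map_mul, map_one, h2' _ hps])⟩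
  obtain ⟨w, hw⟩ := psl_involution_conj m hK hxx hx1
  set c := psl K m hK w
  have hch : c * hmG K m * c⁻¹ = hmG K m := by rw [← hm_comm_psl m hK w, mul_inv_cancel_right]
  have hcx : c * psl K m hK x * c⁻¹ = psl K m hK (wP K) := by rw [← map_inv, ← map_mul, ← map_mul, hw]
  refine ⟨c * a, (Set.eq_of_subset_of_ncard_le ?_ ?_ (Set.toFinite _)).symm⟩
  · have hmem : ∀ y ∈ V', c * y * c⁻¹ ∈ V.map (MulAut.conj (c * a)).toMonoidHom := by
      rintro _ ⟨y, hy, rfl⟩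
      exact ⟨y, hy, by show c * a * y * (c * a)⁻¹ = c * (a * y * a⁻¹) * c⁻¹; group⟩
    intro y hy
    simp only [Set.mem_insert_iff, Set.mem_singleton_iff] at hy
    rcases hy with rfl | rfl | rfl | rfl
    · exact one_mem _
    · exact hch ▸ hmem _ hm'
    · exact hcx ▸ hmem _ hx
    · have := mul_mem (hch ▸ hmem _ hm') (hcx ▸ hmem _ hx)
      exact this
  · rw [← Nat.card_coe_set_eq, SetLike.coe_sort_coe, GL0.card_map_conj, hV]
    have hw1 : psl K m hK (wP K) ≠ 1 := fun e => wP_ne_one (psl_injective m hK (e.trans (map_one _).symm))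
    have n3 : hmG K m ≠ psl K m hK (wP K) := fun e => psl_ne_hm m hK _ e.symm
    have n4 : hmG K m * psl K m hK (wP K) ≠ 1 := fun e =>
      n3 ((eq_inv_of_mul_eq_one_left e).trans (by rw [← map_inv, inv_eq_of_mul_eq_one_right wP_mul_self]))
    rw [Set.ncard_insert_of_notMem (by simp [(hmG_ne_one m hK).symm, hw1.symm, n4.symm]),
      Set.ncard_insert_of_notMem (by simp [n3, hw1]),
      Set.ncard_insert_of_notMem (by simp [hmG_ne_one m hK]), Set.ncard_singleton]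

include hK in
theorem local_two (hm : 1 ≤ m) {Q : Subgroup ↥G¹} (h2 : ∀ x ∈ Q, x * x = 1) (h4 : 4 ≤ Nat.card Q) :
    ∃ A : Subgroup ↥G¹, Subgroup.normalizer (Q : Set ↥G¹) ≤ Subgroup.normalizer (A : Set ↥G¹) ∧ IsLocalBase m A := by
  haveI : Fact (Nat.Prime 2) := ⟨Nat.prime_two⟩
  have hQ : IsPGroup 2 ↥Q := fun x => ⟨1, Subtype.ext (by simpa [pow_two] using h2 x x.2)⟩
  obtain ⟨P, hP⟩ := hQ.exists_le_sylow
  have hP8 : Nat.card ↥(P : Subgroup ↥G¹) = 8 := (sylow_conj m hK P).1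
  have hd : Nat.card Q ∣ 2 ^ 3 := by
    have := Subgroup.card_dvd_of_le hP
    rwa [hP8] at this
  obtain ⟨i, hi, hQi⟩ := (Nat.dvd_prime_pow Nat.prime_two).1 hd
  rcases (show i = 2 ∨ i = 3 by interval_cases i <;> first | (norm_num; done) | (rw [hQi] at h4; norm_num at h4)) with rfl | rfl
  · have hV4 : Nat.card ↥(VG K m hK) = 4 := card_VG (K := K) m hK
    obtain ⟨b, hb⟩ := four_conj m hK (V := Q) (by rw [hQi]; norm_num) h2
    obtain ⟨c, hc⟩ := four_conj m hK hV4 fun x hx => VG_sq m hK hx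
    have e : Q.map (MulAut.conj b).toMonoidHom = (VG K m hK).map (MulAut.conj c).toMonoidHom :=
      SetLike.coe_injective (hb.trans hc.symm)
    set g := c⁻¹ * b
    refine ⟨(A2 K m hK).map (MulAut.conj g⁻¹).toMonoidHom, fun y hy => ?_, Or.inr (Or.inr
      ⟨haveI := isCyclic_A2 (K := K) m hK; GL0.isCyclic_map_conj _, Or.inr (Or.inl (by
        rw [GL0.card_map_conj, card_A2 m hK]))⟩)⟩
    have hQV : ∀ x, g * x * g⁻¹ ∈ VG K m hK ↔ x ∈ Q := fun x => by
      have h1 : b * x * b⁻¹ ∈ Q.map (MulAut.conj b).toMonoidHom ↔ x ∈ Q := by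
        rw [GL0.conj_mem_map, show b⁻¹ * (b * x * b⁻¹) * b = x by group]
      rw [← h1, e, GL0.conj_mem_map,
        show g * x * g⁻¹ = c⁻¹ * (b * x * b⁻¹) * c by simp only [g]; group]
    have hy' : g * y * g⁻¹ ∈ Subgroup.normalizer ((VG K m hK : Subgroup ↥G¹) : Set ↥G¹) := by
      refine GL0.mem_normalizer_of_conj_le fun x hx => ?_
      have hxQ : g⁻¹ * x * g ∈ Q := (hQV _).1 (by rwa [show g * (g⁻¹ * x * g) * g⁻¹ = x by group])
      have := (hQV _).2 ((Subgroup.mem_normalizer_iff.1 hy _).1 hxQ)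
      rwa [show g * (y * (g⁻¹ * x * g) * y⁻¹) * g⁻¹ = g * y * g⁻¹ * x * (g * y * g⁻¹)⁻¹ by group] at this
    have hk : 1 < k₂ := by
      have : 3 ^ 3 ≤ qq := Nat.pow_le_pow_right (by norm_num) (by omega)
      omega
    rw [← normalizer_A2 m hK le_rfl (fun e => by
      have := card_A2 (K := K) m hK; rw [e, Subgroup.card_bot] at this; omega)] at hy'
    refine GL0.mem_normalizer_of_conj_le fun x hx => GL0.conj_mem_map.2 ?_
    have := (Subgroup.mem_normalizer_iff.1 hy' _).1 (GL0.conj_mem_map.1 hx)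
    rwa [show g⁻¹⁻¹ * (y * x * y⁻¹) * g⁻¹ = g * y * g⁻¹ * (g⁻¹⁻¹ * x * g⁻¹) * (g * y * g⁻¹)⁻¹ by group]
  · exact ⟨P, le_of_eq (by rw [Subgroup.eq_of_le_of_card_ge hP (by rw [hQi, hP8]; norm_num)]), Or.inl ⟨P, rfl⟩⟩

include hK in
/-- Solvable subgroups lie in local normalisers. -/
theorem solvable_local (hm : 1 ≤ m) (S : Subgroup ↥G¹) (hS : Group.IsSolvable ↥S) :
    ∃ A : Subgroup ↥G¹, S ≤ Subgroup.normalizer (A : Set ↥G¹) ∧ IsLocalBase m A := by
  haveI : Fact (Nat.Prime 2) := ⟨Nat.prime_two⟩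
  rcases eq_or_ne S ⊥ with rfl | hne
  · exact ⟨((default : Sylow 2 ↥G¹) : Subgroup ↥G¹), bot_le, Or.inl ⟨default, rfl⟩⟩
  obtain ⟨p, Q, hp, -, hQne, hQp, -, hSQ⟩ := GL0.exists_elem_normal hS hne
  have done : ∀ {R : Subgroup ↥G¹}, S ≤ Subgroup.normalizer (R : Set ↥G¹) →
      (∃ A : Subgroup ↥G¹, Subgroup.normalizer (R : Set ↥G¹) ≤ Subgroup.normalizer (A : Set ↥G¹) ∧ IsLocalBase m A) →
      ∃ A : Subgroup ↥G¹, S ≤ Subgroup.normalizer (A : Set ↥G¹) ∧ IsLocalBase m A :=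
    fun h ⟨A, h1, h2⟩ => ⟨A, h.trans h1, h2⟩
  rcases eq_or_ne p 2 with rfl | hp2
  swap
  · exact done hSQ (local_odd m hK hm hp hp2 (fun x => ⟨1, Subtype.ext (by simpa using hQp x x.2)⟩) hQne)
  have hQ2 : ∀ x ∈ Q, x * x = 1 := fun x hx => by rw [← pow_two, hQp x hx]
  rcases le_or_gt 4 (Nat.card Q) with h4 | h4
  · exact done hSQ (local_two m hK hm hQ2 h4)
  obtain ⟨⟨i, hi⟩, hi1⟩ := Subgroup.ne_bot_iff_exists_ne_one.1 hQne
  have hi1' : i ≠ 1 := fun e => hi1 (Subtype.ext e)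
  have hQi : ∀ x ∈ Q, x = 1 ∨ x = i := by
    intro x hx
    by_contra hcon
    rw [not_or] at hcon
    have hd : 2 ∣ Nat.card Q := by
      have := orderOf_dvd_natCard (⟨i, hi⟩ : ↥Q)
      rwa [Subgroup.orderOf_mk, orderOf_eq_prime (hQp i hi) hi1'] at this
    have h3 : ({1, i, x} : Set ↥G¹).ncard ≤ Nat.card Q := by
      rw [show Nat.card Q = (Q : Set ↥G¹).ncard from Nat.card_coe_set_eq _]
      refine Set.ncard_le_ncard ?_
      simp [Set.insert_subset_iff, one_mem, hi, hx]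
    rw [Set.ncard_insert_of_notMem (by simp [hi1'.symm, Ne.symm hcon.1]),
      Set.ncard_pair (Ne.symm hcon.2)] at h3
    omega
  obtain ⟨b, hb⟩ := isConj_iff.1 (isConj_hm m hK (hQ2 i hi) hi1')
  have hSC : ∀ s ∈ S, b * s * b⁻¹ ∈ Ch K m := fun s hs => (mem_Ch m).2 (by
    rcases hQi _ ((Subgroup.mem_normalizer_iff.1 (hSQ hs) i).1 hi) with h | h
    · exact absurd (conj_eq_one_iff.1 h) hi1'
    · rw [← hb]
      have h' : s * i = i * s := mul_inv_eq_iff_eq_mul.1 h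
      calc b * i * b⁻¹ * (b * s * b⁻¹) = b * (i * s) * b⁻¹ := by group
        _ = b * (s * i) * b⁻¹ := by rw [h']
        _ = _ := by group)
  set π : ↥S →* ProjectiveSpecialLinearGroup (Fin 2) K :=
    (MonoidHom.snd _ _).comp ((centralizerEquiv K m hK).symm.toMonoidHom.comp
      (((MulAut.conj b).toMonoidHom.comp S.subtype).codRestrict (Ch K m) fun s => hSC s s.2)) with hπ
  have hπs : ∀ s : ↥S, b * (s : ↥G¹) * b⁻¹ = psl K m hK (π s) ∨
      b * (s : ↥G¹) * b⁻¹ = hmG K m * psl K m hK (π s) := fun s => by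
    set c : ↥(Ch K m) := ⟨b * (s : ↥G¹) * b⁻¹, hSC s s.2⟩
    have h : ((centralizerEquiv K m hK ((centralizerEquiv K m hK).symm c) : ↥(Ch K m)) : ↥G¹) =
        b * (s : ↥G¹) * b⁻¹ := by rw [MulEquiv.apply_symm_apply]
    have hp : π s = ((centralizerEquiv K m hK).symm c).2 := rfl
    rw [hp, ← h]
    generalize (centralizerEquiv K m hK).symm c = z
    show (if z.1 = 1 then 1 else hmG K m) * psl K m hK z.2 = _ ∨
      (if z.1 = 1 then 1 else hmG K m) * psl K m hK z.2 = _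
    split_ifs
    · exact Or.inl (one_mul _)
    · exact Or.inr rfl
  have hconj : ∀ (s : ↥S) (r : ProjectiveSpecialLinearGroup (Fin 2) K),
      b * (s : ↥G¹) * b⁻¹ * psl K m hK r * (b * (s : ↥G¹) * b⁻¹)⁻¹ = psl K m hK (π s * r * (π s)⁻¹) := fun s r => by
    rcases hπs s with h | h <;> rw [h]
    · rw [map_mul, map_mul, map_inv]
    · rw [show hmG K m * psl K m hK (π s) * psl K m hK r * (hmG K m * psl K m hK (π s))⁻¹ =
        hmG K m * (psl K m hK (π s) * psl K m hK r * (psl K m hK (π s))⁻¹) * (hmG K m)⁻¹ by group,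
        ← map_inv, ← map_mul, ← map_mul, hm_comm_psl m hK, mul_inv_cancel_right]
  rcases eq_or_ne π.range ⊥ with hM | hM
  · -- `S` is the involution
    obtain ⟨P, hP⟩ := (show IsPGroup 2 ↥(Subgroup.zpowers i) from IsPGroup.of_card (n := 1)
      (by rw [Nat.card_zpowers, pow_one, orderOf_eq_prime (hQp i hi) hi1'])).exists_le_sylow
    refine ⟨P, ?_, Or.inl ⟨P, rfl⟩⟩
    intro s hs
    have h1 : π ⟨s, hs⟩ = 1 := Subgroup.mem_bot.1 (hM ▸ ⟨⟨s, hs⟩, rfl⟩)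
    refine Subgroup.le_normalizer (hP ?_)
    rcases hπs ⟨s, hs⟩ with h | h <;> rw [h1, map_one] at h
    · rw [conj_eq_one_iff] at h
      rw [show s = 1 from h]; exact one_mem _
    · rw [mul_one, ← hb, mul_left_inj, mul_right_inj] at h
      rw [show s = i from h]; exact Subgroup.mem_zpowers i
  haveI := hS
  have hsol : Group.IsSolvable ↥π.range := Group.isSolvable_of_surjective (f := π.rangeRestrict) π.rangeRestrict_surjective
  obtain ⟨r, R, hr, -, hRne, hRr, -, hMR⟩ := GL0.exists_elem_normal hsol hM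
  set R' := (R.map (psl K m hK)).map (MulAut.conj b⁻¹).toMonoidHom with hR'
  have hR'mem : ∀ x, x ∈ R' ↔ b * x * b⁻¹ ∈ R.map (psl K m hK) := fun x => by
    rw [hR', GL0.conj_mem_map, inv_inv]
  have hSR' : S ≤ Subgroup.normalizer (R' : Set ↥G¹) := fun s hs => GL0.mem_normalizer_of_conj_le fun x hx => by
    rw [hR'mem] at hx ⊢
    obtain ⟨w, hw, e⟩ := hx
    refine ⟨π ⟨s, hs⟩ * w * (π ⟨s, hs⟩)⁻¹, (Subgroup.mem_normalizer_iff.1 (hMR ⟨⟨s, hs⟩, rfl⟩) w).1 hw, ?_⟩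
    rw [← hconj ⟨s, hs⟩ w, e]; group
  have hR'r : ∀ x ∈ R', x ^ r = 1 := fun x hx => by
    obtain ⟨w, hw, e⟩ := (hR'mem x).1 hx
    have : (b * x * b⁻¹) ^ r = 1 := by rw [← e, ← map_pow, hRr w hw, map_one]
    rwa [conj_pow, conj_eq_one_iff] at this
  obtain ⟨⟨w, hw⟩, hw1⟩ := Subgroup.ne_bot_iff_exists_ne_one.1 hRne
  have hw1' : w ≠ 1 := fun e => hw1 (Subtype.ext e)
  have hwR : b⁻¹ * psl K m hK w * b ∈ R' :=
    (hR'mem _).2 ⟨w, hw, by group⟩
  have hR'ne : R' ≠ ⊥ := fun e => hw1' (psl_injective m hK (by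
    have := Subgroup.mem_bot.1 (e ▸ hwR)
    rw [map_one]
    calc psl K m hK w = b * (b⁻¹ * psl K m hK w * b) * b⁻¹ := by group
      _ = 1 := by rw [this]; group))
  rcases eq_or_ne r 2 with rfl | hr2
  swap
  · exact done hSR' (local_odd m hK hm hr hr2 (fun x => ⟨1, Subtype.ext (by simpa using hR'r x x.2)⟩) hR'ne)
  -- the product with the involution
  have hcomm : ∀ x ∈ R', x * i = i * x := fun x hx => by
    obtain ⟨v, -, e⟩ := (hR'mem x).1 hx
    have h := hm_comm_psl m hK v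
    rw [e, ← hb] at h
    calc x * i = b⁻¹ * (b * x * b⁻¹ * (b * i * b⁻¹)) * b := by group
      _ = b⁻¹ * (b * i * b⁻¹ * (b * x * b⁻¹)) * b := by rw [h]
      _ = i * x := by group
  have hT2 : ∀ x ∈ R' ⊔ Subgroup.zpowers i, x * x = 1 := fun x hx => by
    obtain ⟨v, hv, a, ha, rfl⟩ := GL0.mem_sup_of_comm (fun v hv a ha => by
      obtain ⟨k, rfl⟩ := Subgroup.mem_zpowers_iff.1 ha
      exact ((show Commute v i from hcomm v hv).zpow_right k).eq) hx
    obtain ⟨k, rfl⟩ := Subgroup.mem_zpowers_iff.1 ha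
    have hc : Commute v (i ^ k) := (show Commute v i from hcomm v hv).zpow_right k
    rw [← pow_two, hc.mul_pow, hR'r v hv, one_mul, ← zpow_natCast, ← _root_.zpow_mul, mul_comm, _root_.zpow_mul,
      zpow_natCast, hQp i hi, _root_.one_zpow]
  refine done (R := R' ⊔ Subgroup.zpowers i) (fun s hs => GL0.mem_normalizer_of_conj_le fun x hx => ?_)
    (local_two m hK hm hT2 ?_)
  · have hsi : s * i * s⁻¹ = i := ((hQi _ ((Subgroup.mem_normalizer_iff.1 (hSQ hs) i).1 hi))).resolve_left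
      fun e => hi1' (conj_eq_one_iff.1 e)
    obtain ⟨v, hv, a, ha, rfl⟩ := GL0.mem_sup_of_comm (fun v hv a ha => by
      obtain ⟨k, rfl⟩ := Subgroup.mem_zpowers_iff.1 ha
      exact ((show Commute v i from hcomm v hv).zpow_right k).eq) hx
    obtain ⟨k, rfl⟩ := Subgroup.mem_zpowers_iff.1 ha
    rw [show s * (v * i ^ k) * s⁻¹ = (s * v * s⁻¹) * (s * i ^ k * s⁻¹) by group, ← conj_zpow, hsi]
    exact Subgroup.mul_mem_sup ((Subgroup.mem_normalizer_iff.1 (hSR' hs) v).1 hv)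
      (zpow_mem (Subgroup.mem_zpowers i) k)
  · set x := b⁻¹ * psl K m hK w * b with hx
    have hx1 : x ≠ 1 := fun e => hw1' (psl_injective m hK (by
      rw [map_one, show psl K m hK w = b * x * b⁻¹ by rw [hx]; group, e]; group))
    have hxi : x ≠ i := fun e => psl_ne_hm m hK w (by
      rw [show psl K m hK w = b * x * b⁻¹ by rw [hx]; group, e, hb])
    have hxi1 : x * i ≠ 1 := fun e => hxi ((eq_inv_of_mul_eq_one_left e).trans
      (inv_eq_of_mul_eq_one_right (hQ2 i hi)))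
    have hxix : x * i ≠ x := fun e => hi1' (mul_eq_left.1 e)
    have hxii : x * i ≠ i := fun e => hx1 (mul_eq_right.1 e)
    have hcard : ({1, i, x, x * i} : Set ↥G¹).ncard = 4 := by
      rw [Set.ncard_insert_of_notMem (by simp [hi1'.symm, hx1.symm, hxi1.symm]),
        Set.ncard_insert_of_notMem (by simp [hxi.symm, hxii.symm]),
        Set.ncard_pair hxix.symm]
    rw [← hcard, show Nat.card ↥(R' ⊔ Subgroup.zpowers i) = ((R' ⊔ Subgroup.zpowers i : Subgroup ↥G¹) : Set ↥G¹).ncard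
      from Nat.card_coe_set_eq _]
    refine Set.ncard_le_ncard ?_
    have hi' : i ∈ R' ⊔ Subgroup.zpowers i := Subgroup.mem_sup_right (Subgroup.mem_zpowers i)
    have hx' : x ∈ R' ⊔ Subgroup.zpowers i := Subgroup.mem_sup_left hwR
    simp [Set.insert_subset_iff, one_mem, hi', hx', mul_mem hx' hi']

end CfsgLib.Chev.Ree
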